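import Mathlib

/-!
# A connected rectagraph of valency at most 9 has at most 512 vertices (helper814, S3499-IV-L, socle `A_9`)
-/

set_option autoImplicit false

namespace Cfsg.Agent.H814.EP9

/-- the balls around `a` -/
def ball {V : Type*} (adj : V → V → Prop) (a : V) : ℕ → Set V
  | 0 => {a}
  | n + 1 => {y | y ∈ ball adj a n ∨ ∃ x ∈ ball adj a n, adj x y}

theorem rect_card {V : Type*} [Finite V] (adj : V → V → Prop) (hs : ∀ x y, adj x y → adj y x) (a : V)
    (hdeg : ∀ x, {y | adj x y}.ncard ≤ 9)
    (hex : ∀ b u v, adj b u → adj b v → u ≠ v → ∃ w, w ≠ b ∧ adj u w ∧ adj v w)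
    (huniq : ∀ b u v w w', adj b u → adj b v → u ≠ v → w ≠ b → adj u w → adj v w → w' ≠ b → adj u w' → adj v w' →
      w = w')
    (hconn : ∀ S : Set V, a ∈ S → (∀ x ∈ S, ∀ y, adj x y → y ∈ S) → ∀ y, y ∈ S) : Nat.card V ≤ 512 := by
  classical
  have : Fintype V := Fintype.ofFinite V
  have hall : ∀ y, ∃ n, y ∈ ball adj a n := by
    apply hconn {y | ∃ n, y ∈ ball adj a n}
    · exact ⟨0, rfl⟩
    · rintro x ⟨n, hn⟩ y hxy
      exact ⟨n + 1, Or.inr ⟨x, hn, hxy⟩⟩
  let d : V → ℕ := fun y => Nat.find (hall y)
  have d1 : ∀ y, y ∈ ball adj a (d y) := fun y => Nat.find_spec (hall y)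
  have d2 : ∀ y n, y ∈ ball adj a n → d y ≤ n := fun y n h => Nat.find_min' (hall y) h
  have d3 : ∀ x y, adj x y → d y ≤ d x + 1 := by
    intro x y h
    exact d2 y _ (Or.inr ⟨x, d1 x, h⟩)
  have d4 : ∀ y n, d y = n + 1 → ∃ x, adj x y ∧ d x = n := by
    intro y n h
    have h1 := d1 y
    rw [h] at h1
    rcases h1 with h1 | ⟨x, hx, hxy⟩
    · have := d2 y n h1
      omega
    · refine ⟨x, hxy, ?_⟩
      have h2 := d2 x n hx
      have h3 := d3 x y hxy
      omega
  have d5 : ∀ y, d y = 0 → y = a := by
    intro y h
    have h1 := d1 y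
    rw [h] at h1
    exact h1
  clear_value d
  -- the number of neighbours in the previous layer
  have hc : ∀ n y, d y = n → n ≤ (Finset.univ.filter fun x => adj y x ∧ d x + 1 = n).card := by
    intro n
    induction n with
    | zero => intro y _; exact Nat.zero_le _
    | succ m ih =>
      intro y hy
      obtain ⟨z, hzy, hz⟩ := d4 y m hy
      have h1 := ih z hz
      have hf : ∀ w, adj z w → d w + 1 = m → ∃ v, v ≠ z ∧ adj y v ∧ adj w v := fun w hw hdw =>
        hex z y w hzy hw (by rintro rfl; omega)
      choose! f hf1 hf2 hf3 using hf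
      have hdf : ∀ w, adj z w → d w + 1 = m → d (f w) = m := by
        intro w hw hdw
        have e1 := d3 w (f w) (hf3 w hw hdw)
        have e2 := d3 (f w) y (hs _ _ (hf2 w hw hdw))
        omega
      have hinj : Set.InjOn f (Finset.univ.filter fun x => adj z x ∧ d x + 1 = m : Finset V) := by
        intro w hw w' hw' e
        rw [Finset.mem_coe, Finset.mem_filter] at hw hw'
        by_contra hne
        have k1 := hf1 w hw.2.1 hw.2.2
        have k2 := hf2 w hw.2.1 hw.2.2
        have k3 := hf3 w hw.2.1 hw.2.2
        have k4 := hf3 w' hw'.2.1 hw'.2.2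
        rw [← e] at k4
        have h3 : y = w' := huniq w z (f w) y w' (hs _ _ hw.2.1) k3 (Ne.symm k1) (by
            rintro rfl
            have := hw.2.2
            omega) hzy (hs _ _ k2) (Ne.symm hne) hw'.2.1 (hs _ _ k4)
        have := hw'.2.2
        rw [← h3] at this
        omega
      have h2 : insert z ((Finset.univ.filter fun x => adj z x ∧ d x + 1 = m).image f) ⊆
          Finset.univ.filter fun x => adj y x ∧ d x + 1 = m + 1 := by
        intro x hx
        rw [Finset.mem_insert, Finset.mem_image] at hx
        rw [Finset.mem_filter]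
        rcases hx with rfl | ⟨w, hw, rfl⟩
        · exact ⟨Finset.mem_univ _, hs _ _ hzy, by omega⟩
        · rw [Finset.mem_filter] at hw
          exact ⟨Finset.mem_univ _, hf2 w hw.2.1 hw.2.2, by rw [hdf w hw.2.1 hw.2.2]⟩
      have h3 := Finset.card_le_card h2
      rw [Finset.card_insert_of_notMem, Finset.card_image_of_injOn hinj] at h3
      · omega
      · intro hz'
        rw [Finset.mem_image] at hz'
        obtain ⟨w, hw, e⟩ := hz'
        rw [Finset.mem_filter] at hw
        exact hf1 w hw.2.1 hw.2.2 e
  let k : ℕ → ℕ := fun n => (Finset.univ.filter fun x => d x = n).card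
  have hk : ∀ n, k (n + 1) * (n + 1) ≤ k n * (9 - n) := by
    intro n
    apply Finset.card_mul_le_card_mul (fun y x => adj y x)
    · intro y hy
      rw [Finset.mem_filter] at hy
      refine (hc (n + 1) y hy.2).trans (Finset.card_le_card ?_)
      intro x hx
      rw [Finset.mem_filter] at hx
      rw [Finset.mem_bipartiteAbove, Finset.mem_filter]
      exact ⟨⟨Finset.mem_univ _, by omega⟩, hx.2.1⟩
    · intro x hx
      rw [Finset.mem_filter] at hx
      have h1 := hc n x hx.2
      have h2 : (Finset.bipartiteBelow (fun y x => adj y x) (Finset.univ.filter fun x => d x = n + 1) x).card +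
          (Finset.univ.filter fun y => adj x y ∧ d y + 1 = n).card ≤ {y | adj x y}.ncard := by
        rw [← Finset.card_union_of_disjoint]
        · rw [Set.ncard_eq_toFinset_card']
          apply Finset.card_le_card
          intro y hy
          simp only [Finset.mem_union, Finset.mem_bipartiteBelow, Finset.mem_filter] at hy
          rw [Set.mem_toFinset]
          rcases hy with hy | hy
          · exact hs _ _ hy.2
          · exact hy.2.1
        · rw [Finset.disjoint_left]
          intro y hy hy'
          rw [Finset.mem_bipartiteBelow, Finset.mem_filter] at hy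
          rw [Finset.mem_filter] at hy'
          have e1 := hy.1.2
          have e2 := hy'.2.2
          omega
      have h3 := hdeg x
      omega
  have hk0 : k 0 ≤ 1 := by
    have : (Finset.univ.filter fun x => d x = 0) ⊆ {a} := by
      intro x hx
      rw [Finset.mem_filter] at hx
      rw [Finset.mem_singleton]
      exact d5 x hx.2
    exact (Finset.card_le_card this).trans (by rw [Finset.card_singleton])
  have k0 := hk 0
  have k1 := hk 1
  have k2 := hk 2
  have k3 := hk 3
  have k4 := hk 4
  have k5 := hk 5
  have k6 := hk 6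
  have k7 := hk 7
  have k8 := hk 8
  have k9 := hk 9
  norm_num at k0 k1 k2 k3 k4 k5 k6 k7 k8 k9
  have hbig : ∀ n, k (n + 10) = 0 := by
    intro n
    induction n with
    | zero => exact k9
    | succ n ih =>
      have := hk (n + 10)
      rw [ih, zero_mul] at this
      have h2 : k (n + 10 + 1) * (n + 10 + 1) = 0 := by omega
      rcases Nat.mul_eq_zero.1 h2 with h3 | h3
      · have e : n + 1 + 10 = n + 10 + 1 := by omega
        rw [e]
        exact h3
      · omega
  have hle9 : ∀ y, d y < 10 := by
    intro y
    by_contra h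
    have h1 := hbig (d y - 10)
    have e : d y - 10 + 10 = d y := by omega
    rw [e] at h1
    have h2 : y ∈ Finset.univ.filter fun x => d x = d y := by
      rw [Finset.mem_filter]
      exact ⟨Finset.mem_univ _, rfl⟩
    rw [Finset.card_eq_zero.1 h1] at h2
    exact absurd h2 (Finset.notMem_empty _)
  have hsum : (Finset.univ : Finset V).card ≤ ∑ n ∈ Finset.range 10, k n := by
    refine le_trans (Finset.card_le_card ?_) Finset.card_biUnion_le
    intro y _
    rw [Finset.mem_biUnion]
    refine ⟨d y, Finset.mem_range.2 (hle9 y), ?_⟩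
    rw [Finset.mem_filter]
    exact ⟨Finset.mem_univ _, rfl⟩
  simp only [Finset.sum_range_succ, Finset.sum_range_zero, zero_add] at hsum
  rw [Nat.card_eq_fintype_card, ← Finset.card_univ]
  clear_value k
  omega

end Cfsg.Agent.H814.EP9
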