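import Cfsg.Agent.H814.EP.Frame
import Cfsg.Agent.H814.EP.Rect

/-!
# Extremely primitive actions with point stabiliser `A_9` or `S_9`, even degree: the degree is at most 512
(helper814, S3499-IV-L, socle `A_9`)

The two point stabilisers `A_8` (`S_8`) give a graph of valency 9, which is a clique or a rectagraph.
-/

set_option autoImplicit false

namespace Cfsg.Agent.H814.EP9

open Equiv Equiv.Perm MulAction Subgroup Cfsg.Agent.H284 Cfsg.Agent.H839.EP
open scoped Pointwise

variable {G Ω : Type*} [Group G] [MulAction G Ω] {R : Subgroup (Perm (Fin 9))} {p : Ω}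

/-- adjacency -/
def adj (G : Type*) {Ω : Type*} [Group G] [MulAction G Ω] (p q : Ω) : Prop :=
  q ≠ p ∧ Nat.card (stabilizer G p ⊓ stabilizer G q : Subgroup G) * 9 = Nat.card (stabilizer G p)

theorem adj_smul {p q : Ω} (g : G) (hpq : adj G p q) : adj G (g • p) (g • q) := by
  refine ⟨fun e => hpq.1 (smul_left_cancel g e), ?_⟩
  rw [stab_smul, stab_smul, ← cj_inf, card_cj, card_cj]
  exact hpq.2

/-- the neighbours of `p` -/
structure Nb (F : Fr R G p) (x : Fin 9 → Ω) : Prop where
  ne : ∀ i, x i ≠ p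
  eq : ∀ i, stabilizer G p ⊓ stabilizer G (x i) = F.co (S i)
  uniq : ∀ i c, c ≠ p → F.co (S i) ≤ stabilizer G c → c = x i

theorem exists_ne_fin (i : Fin 9) : ∃ j, j ≠ i := by
  obtain ⟨j, h, -⟩ := exists_ne_three (α := Fin 9) (by simp) i i
  exact ⟨j, h⟩

variable [Finite G] [Finite Ω] [FaithfulSMul G Ω] (h : EPA G Ω) (hR : alternatingGroup (Fin 9) ≤ R)

include h hR

namespace Fr

variable (F : Fr R G p)

theorem line_S {c : Ω} (hc : c ≠ p) {i : Fin 9} (hS : F.co (S i) ≤ stabilizer G c) :
    stabilizer G p ⊓ stabilizer G c = F.co (S i) := by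
  obtain ⟨j, hj⟩ := exists_ne_fin i
  have h1 : F.co (S i) ≤ stabilizer G p ⊓ stabilizer G c := le_inf (F.co_le _) hS
  rcases F.line_S2 h hR hc (Ne.symm hj) ((F.co_mono inf_le_left).trans hS) with h2 | h2 | h2
  · exact h2
  · rw [h2] at h1
    exact absurd (S_inj hR (F.le_of_co_le h1)) (Ne.symm hj)
  · rw [h2] at h1
    exfalso
    have h3 := F.le_of_co_le h1
    obtain ⟨r, hr, e1, _, e2, _⟩ := exists_mv hR (i := i) (j := i) (k := j) (l := j) hj hj
    rcases h3 ⟨hr, e1⟩ with h4 | h4
    · exact e2 h4.2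
    · exact hj (h4.1.symm.trans e1)

theorem fix_D6 : fixPts Ω (F.co D6) = fixPts Ω (F.co (S 8)) := by
  ext c
  constructor
  · intro hc
    by_cases hcp : c = p
    · rw [hcp]
      exact F.co_le _
    · rw [mem_fixPts, ← F.line_D6 h hR hcp hc]
      exact inf_le_right
  · intro hc
    exact (F.co_mono (fun d hd => D6_fix hd)).trans hc

variable (he : Even (Nat.card Ω))

include he

theorem even_fix (i : Fin 9) : Even (fixPts Ω (F.co (S i))).ncard := by
  have h8 : Even (fixPts Ω (F.co (S 8))).ncard := by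
    rw [← F.fix_D6 h hR]
    have : Fact (Nat.Prime 2) := ⟨Nat.prime_two⟩
    have h1 : Nat.card Ω ≡ (fixPts Ω (F.co D6)).ncard [MOD 2] := fix_modEq (F.isPGroup isPGroup_D6)
    rw [Nat.even_iff] at he ⊢
    rw [← he]
    exact h1.symm
  obtain ⟨j, hj⟩ := exists_ne_fin i
  obtain ⟨r, hr, e1, e2⟩ := exists_map hR (i := 8) (j := 7) (k := i) (l := j) (by decide) (Ne.symm hj)
  obtain ⟨g, hg, e⟩ := F.exists_rho hr
  have h1 := F.cj_co_S hg 8
  rw [e, e1] at h1
  rw [← h1, ncard_fix_cj]
  exact h8

theorem exists_nb (i : Fin 9) : ∃ c, c ≠ p ∧ stabilizer G p ⊓ stabilizer G c = F.co (S i) := by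
  by_contra hcon
  push Not at hcon
  have h1 := F.even_fix h hR he i
  have h2 : fixPts Ω (F.co (S i)) = {p} := by
    ext c
    constructor
    · intro hc
      by_contra hcp
      exact hcon c hcp (F.line_S h hR hcp hc)
    · intro hc
      rw [Set.mem_singleton_iff] at hc
      rw [hc]
      exact F.co_le _
  rw [h2, Set.ncard_singleton] at h1
  revert h1
  decide

theorem fix_le_three (i : Fin 9) : (fixPts Ω (F.co (S i))).ncard ≤ 3 := by
  obtain ⟨c0, hc0, e0⟩ := F.exists_nb h hR he i
  obtain ⟨j, hj⟩ := exists_ne_fin i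
  obtain ⟨c, hc, ec⟩ := F.exists_nb h hR he j
  have hcle : F.co (S j) ≤ stabilizer G c := by
    rw [← ec]
    exact inf_le_right
  have hlb := h.line_bound (a := p) (M := F.co (S i)) (D := F.co (S j ⊓ S i)) ⟨c0, hc0, e0.symm⟩
    (F.co_mono inf_le_right) (c := c) ((F.co_mono inf_le_left).trans hcle) (by
      intro hh
      have h1 : F.co (S i) ≤ F.co (S j) := by
        rw [← ec]
        exact le_inf (F.co_le _) hh
      exact hj (S_inj hR (F.le_of_co_le h1)).symm)
  refine hlb.trans ?_
  obtain ⟨F'⟩ := F.exists_fr h c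
  obtain ⟨k, hk⟩ := F'.t4 hR (M := F.co (S j)) hcle (by rw [F.card_S hR, F.card_stab, F'.card_stab])
  obtain ⟨l, hl, hl'⟩ := F'.t5 hR (j := k) (M := F.co (S j ⊓ S i)) (by
    rw [← hk]
    exact F.co_mono inf_le_left) (by
    rw [← hk]
    exact F.card_S2 hR (Ne.symm hj))
  have hsub : EPA.linesD (F.co (S j ⊓ S i)) c ⊆ {F'.co (S k), F'.co (S l), F'.co (U k l)} := by
    rintro _ ⟨⟨d, hd, rfl⟩, hD⟩
    rw [hl'] at hD
    rcases F'.line_S2 h hR hd (Ne.symm hl) (hD.trans inf_le_right) with e | e | e <;> rw [e] <;> simp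
  refine (Set.ncard_le_ncard hsub (Set.toFinite _)).trans ?_
  refine (Set.ncard_insert_le _ _).trans ?_
  have : ({F'.co (S l), F'.co (U k l)} : Set (Subgroup G)).ncard ≤ 2 :=
    (Set.ncard_insert_le _ _).trans (by rw [Set.ncard_singleton])
  omega

theorem exists_Nb : ∃ x : Fin 9 → Ω, Nb F x := by
  choose x hx1 hx2 using F.exists_nb h hR he
  refine ⟨x, hx1, hx2, ?_⟩
  intro i c hc hle
  by_contra hcx
  have h1 := F.even_fix h hR he i
  have h2 := F.fix_le_three h hR he i
  have h3 : ({p, x i, c} : Set Ω) ⊆ fixPts Ω (F.co (S i)) := by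
    intro y hy
    simp only [Set.mem_insert_iff, Set.mem_singleton_iff] at hy
    rcases hy with rfl | rfl | rfl
    · exact F.co_le _
    · rw [mem_fixPts, ← hx2]
      exact inf_le_right
    · exact hle
  have h4 := Set.ncard_le_ncard h3 (Set.toFinite _)
  have h5 : ({p, x i, c} : Set Ω).ncard = 3 := by
    rw [Set.ncard_insert_of_notMem, Set.ncard_insert_of_notMem, Set.ncard_singleton]
    · rw [Set.mem_singleton_iff]; exact fun e => hcx e.symm
    · simp only [Set.mem_insert_iff, Set.mem_singleton_iff, not_or]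
      exact ⟨fun e => hx1 i e.symm, fun e => hc e.symm⟩
  have h6 : (fixPts Ω (F.co (S i))).ncard = 3 := by omega
  rw [h6] at h1
  revert h1
  decide

end Fr

omit h [Finite Ω] [FaithfulSMul G Ω] in
theorem Nb.adj {F : Fr R G p} {x : Fin 9 → Ω} (hx : Nb F x) (i : Fin 9) : adj G p (x i) := by
  refine ⟨hx.ne i, ?_⟩
  rw [hx.eq]
  exact F.card_S hR i

omit h [Finite Ω] [FaithfulSMul G Ω] in
theorem Nb.of_adj {F : Fr R G p} {x : Fin 9 → Ω} (hx : Nb F x) {q : Ω} (hq : EP9.adj G p q) : ∃ i, q = x i := by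
  obtain ⟨i, hi⟩ := F.t4 hR (M := stabilizer G p ⊓ stabilizer G q) inf_le_left hq.2
  refine ⟨i, hx.uniq i q hq.1 ?_⟩
  rw [← hi]
  exact inf_le_right

omit h hR [Finite G] [Finite Ω] [FaithfulSMul G Ω] in
theorem Nb.smul {F : Fr R G p} {x : Fin 9 → Ω} (hx : Nb F x) {g : G} (hg : g ∈ stabilizer G p) (i : Fin 9) :
    g • x i = x (F.ρ ⟨g, hg⟩ i) := by
  apply hx.uniq
  · intro e
    apply hx.ne i
    have : g • x i = g • p := e.trans (mem_stabilizer_iff.1 hg).symm
    exact smul_left_cancel g this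
  · rw [← F.cj_co_S hg, stab_smul, ← hx.eq]
    exact cj_mono inf_le_right

omit hR [Finite G] [Finite Ω] [FaithfulSMul G Ω] in
theorem adj_symm {p q : Ω} (hpq : adj G p q) : adj G q p := by
  refine ⟨hpq.1.symm, ?_⟩
  obtain ⟨g, rfl⟩ := h.exists_smul p q
  rw [inf_comm, hpq.2, stab_smul, card_cj]

variable (he : Even (Nat.card Ω))

include he

theorem exists_second {F : Fr R G p} {x : Fin 9 → Ω} (hx : Nb F x) (i : Fin 9) :
    ∃ (F' : Fr R G (x i)) (x' : Fin 9 → Ω) (k : Fin 9), Nb F' x' ∧ p = x' k ∧ F'.co (S k) = F.co (S i) := by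
  obtain ⟨F'⟩ := F.exists_fr h (x i)
  obtain ⟨x', hx'⟩ := F'.exists_Nb h hR he
  obtain ⟨k, hk⟩ := hx'.of_adj hR (adj_symm h (hx.adj hR i))
  refine ⟨F', x', k, hx', hk, ?_⟩
  rw [← hx'.eq, ← hk, ← hx.eq, inf_comm]

theorem Nb.second {F : Fr R G p} {x : Fin 9 → Ω} (hx : Nb F x) {i : Fin 9} {y : Ω} (hy : EP9.adj G (x i) y)
    (hyp : y ≠ p) : ∃ j, j ≠ i ∧ stabilizer G p ⊓ stabilizer G (x i) ⊓ stabilizer G y = F.co (S i ⊓ S j) ∧
      (y = x j ∨ stabilizer G p ⊓ stabilizer G y = F.co (U i j)) := by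
  obtain ⟨F', x', k, hx', hk, ek⟩ := exists_second h hR he hx i
  obtain ⟨m, rfl⟩ := hx'.of_adj hR hy
  have hmk : m ≠ k := by
    rintro rfl
    exact hyp hk.symm
  have e1 : stabilizer G p ⊓ stabilizer G (x i) ⊓ stabilizer G (x' m) = F'.co (S k ⊓ S m) := by
    rw [F'.co_inf, ek, ← hx.eq, ← hx'.eq]
    apply le_antisymm
    · exact le_inf inf_le_left (le_inf (inf_le_left.trans inf_le_right) inf_le_right)
    · exact le_inf inf_le_left (inf_le_right.trans inf_le_right)
  obtain ⟨j, hj, ej⟩ := F.t5 hR (j := i) (M := stabilizer G p ⊓ stabilizer G (x i) ⊓ stabilizer G (x' m))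
    (by rw [← hx.eq]; exact inf_le_left) (by rw [e1, F'.card_S2 hR hmk, ek])
  refine ⟨j, hj, ej, ?_⟩
  rcases F.line_S2 h hR hyp (Ne.symm hj) (by rw [← ej]; exact inf_le_right) with e2 | e2 | e2
  · exfalso
    have := hx.uniq i _ hyp (by rw [← e2]; exact inf_le_right)
    exact hy.1 this
  · left
    exact hx.uniq j _ hyp (by rw [← e2]; exact inf_le_right)
  · right
    exact e2

theorem Nb.exists_second {F : Fr R G p} {x : Fin 9 → Ω} (hx : Nb F x) {i j : Fin 9} (hij : i ≠ j) :
    ∃ y, y ≠ p ∧ EP9.adj G (x i) y ∧ stabilizer G p ⊓ stabilizer G (x i) ⊓ stabilizer G y = F.co (S i ⊓ S j) := by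
  obtain ⟨F', x', k, hx', hk, ek⟩ := EP9.exists_second h hR he hx i
  obtain ⟨m, hm, em⟩ := F'.t5 hR (j := k) (M := F.co (S i ⊓ S j)) (by
    rw [ek]
    exact F.co_mono inf_le_left) (by rw [F.card_S2 hR (Ne.symm hij), ek])
  refine ⟨x' m, ?_, hx'.adj hR m, ?_⟩
  · intro e
    apply hm
    have e1 : F'.co (S m) = F'.co (S k) := by rw [← hx'.eq, ← hx'.eq, e, ← hk]
    exact S_inj hR (F'.le_of_co_le e1.le)
  · rw [em, F'.co_inf, ek, ← hx.eq, ← hx'.eq]
    apply le_antisymm
    · exact le_inf inf_le_left (le_inf (inf_le_left.trans inf_le_right) inf_le_right)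
    · exact le_inf inf_le_left (inf_le_right.trans inf_le_right)

theorem Nb.inj {F : Fr R G p} {x : Fin 9 → Ω} (hx : Nb F x) {i : Fin 9} {y y' : Ω} (hy : EP9.adj G (x i) y)
    (hyp : y ≠ p) (hy' : EP9.adj G (x i) y') (hyp' : y' ≠ p)
    (hle : stabilizer G p ⊓ stabilizer G (x i) ⊓ stabilizer G y ≤ stabilizer G y') : y = y' := by
  obtain ⟨F', x', k, hx', hk, ek⟩ := EP9.exists_second h hR he hx i
  obtain ⟨m, rfl⟩ := hx'.of_adj hR hy
  obtain ⟨m', rfl⟩ := hx'.of_adj hR hy'
  have e1 : F'.co (S k ⊓ S m) ≤ F'.co (S m') := by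
    rw [F'.co_inf, ek, ← hx.eq, ← hx'.eq, ← hx'.eq]
    refine le_inf (inf_le_left.trans inf_le_right) (le_trans ?_ hle)
    exact le_inf inf_le_left (inf_le_right.trans inf_le_right)
  have e2 := F'.le_of_co_le e1
  rw [← inf_assoc] at e2
  rcases S2_inj hR e2 with rfl | rfl
  · exact absurd hk.symm hyp'
  · rfl

/-- **The degree is at most 512.** -/
theorem card_le (F : Fr R G p) : Nat.card Ω ≤ 512 := by
  by_cases hA : ∃ (q : Ω) (F : Fr R G q) (x : Fin 9 → Ω), Nb F x ∧ ∃ i j, i ≠ j ∧ adj G (x i) (x j)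
  · obtain ⟨q, F, x, hx, i, j, hij, ha⟩ := hA
    have hall : ∀ k l, k ≠ l → adj G (x k) (x l) := by
      intro k l hkl
      obtain ⟨r, hr, e1, e2⟩ := exists_map hR hij hkl
      obtain ⟨g, hg, e⟩ := F.exists_rho hr
      have := adj_smul g ha
      rw [hx.smul hg, hx.smul hg, e, e1, e2] at this
      exact this
    have hS : ∀ y, y ∈ insert q (Set.range x) ↔ y = x 0 ∨ adj G (x 0) y := by
      intro y
      constructor
      · rintro (rfl | ⟨l, rfl⟩)
        · right
          exact adj_symm h (hx.adj hR 0)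
        · by_cases hl : l = 0
          · left; rw [hl]
          · right; exact hall 0 l (Ne.symm hl)
      · rintro (rfl | hy)
        · right; exact ⟨0, rfl⟩
        · by_cases hyq : y = q
          · left; exact hyq
          · right
            obtain ⟨l, hl, e, -⟩ := hx.second h hR he hy hyq
            refine ⟨l, ?_⟩
            symm
            refine hx.inj h hR he hy hyq (hall 0 l (Ne.symm hl)) (hx.ne l) ?_
            rw [e, F.co_inf]
            refine inf_le_right.trans ?_
            rw [← hx.eq]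
            exact inf_le_right
    have huniv : ∀ y, y ∈ insert q (Set.range x) := by
      apply h.eq_univ_of_two (a := q) (b := x 0) (hx.ne 0).symm
      · rintro g hg y (rfl | ⟨l, rfl⟩)
        · left; exact hg
        · right; exact ⟨_, (hx.smul hg l).symm⟩
      · intro g hg y hy
        rw [hS] at hy ⊢
        rcases hy with rfl | hy
        · left; exact hg
        · right
          have := adj_smul g hy
          rwa [mem_stabilizer_iff.1 hg] at this
      · exact ⟨q, Or.inl rfl⟩
    have h1 : (insert q (Set.range x)).ncard = Nat.card Ω := by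
      rw [← Set.ncard_univ]
      congr 1
      exact Set.eq_univ_of_forall huniv
    have h2 : (insert q (Set.range x)).ncard ≤ 10 := by
      refine (Set.ncard_insert_le _ _).trans ?_
      have h3 : (Set.range x).ncard ≤ 9 := by
        rw [← Set.image_univ]
        refine (Set.ncard_image_le (Set.toFinite _)).trans ?_
        rw [Set.ncard_univ, Nat.card_eq_fintype_card, Fintype.card_fin]
      omega
    omega
  · push Not at hA
    -- a rectagraph
    have hfr : ∀ q : Ω, ∃ (F' : Fr R G q) (x : Fin 9 → Ω), Nb F' x := by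
      intro q
      obtain ⟨F'⟩ := F.exists_fr h q
      obtain ⟨x, hx⟩ := F'.exists_Nb h hR he
      exact ⟨F', x, hx⟩
    apply rect_card (adj G) (fun _ _ => adj_symm h) p
    · intro q
      obtain ⟨F', x, hx⟩ := hfr q
      have h1 : {y | adj G q y} ⊆ Set.range x := by
        intro y hy
        obtain ⟨i, rfl⟩ := hx.of_adj hR hy
        exact ⟨i, rfl⟩
      refine (Set.ncard_le_ncard h1 (Set.toFinite _)).trans ?_
      rw [← Set.image_univ]
      refine (Set.ncard_image_le (Set.toFinite _)).trans ?_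
      rw [Set.ncard_univ, Nat.card_eq_fintype_card, Fintype.card_fin]
    · intro b u v hu hv huv
      obtain ⟨F', x, hx⟩ := hfr b
      obtain ⟨i, rfl⟩ := hx.of_adj hR hu
      obtain ⟨j, rfl⟩ := hx.of_adj hR hv
      have hij : i ≠ j := fun e => huv (by rw [e])
      obtain ⟨y, hyp, hy, e⟩ := hx.exists_second h hR he hij
      refine ⟨y, hyp, hy, ?_⟩
      obtain ⟨l, hl, e1, e2⟩ := hx.second h hR he hy hyp
      have hlj : l = j := by
        have h1 : F'.co (S i ⊓ S j) ≤ F'.co (S l) := by
          rw [← e, e1]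
          exact F'.co_mono inf_le_right
        have h2 := F'.le_of_co_le h1
        rw [← inf_assoc] at h2
        rcases S2_inj hR h2 with h3 | h3
        · exact absurd h3 hl
        · exact h3
      subst hlj
      rcases e2 with e2 | e2
      · rw [e2] at hy
        exact absurd hy (hA b F' x hx i l hij)
      · obtain ⟨r, hr, e3, e4⟩ := exists_map hR hij (Ne.symm hij)
        obtain ⟨g, hg, e5⟩ := F'.exists_rho hr
        have hgy : g ∈ stabilizer G y := by
          have : g ∈ F'.co (U i l) := F'.mem_co.2 ⟨hg, by rw [e5]; exact Or.inr ⟨e3, e4⟩⟩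
          rw [← e2] at this
          exact this.2
        have h3 := adj_smul g hy
        rw [hx.smul hg, e5, e3, mem_stabilizer_iff.1 hgy] at h3
        exact h3
    · intro b u v w w' hu hv huv hwb huw hvw hwb' huw' hvw'
      obtain ⟨F', x, hx⟩ := hfr b
      obtain ⟨i, rfl⟩ := hx.of_adj hR hu
      obtain ⟨j, rfl⟩ := hx.of_adj hR hv
      have hij : i ≠ j := fun e => huv (by rw [e])
      have key : ∀ w, w ≠ b → adj G (x i) w → adj G (x j) w →
          stabilizer G b ⊓ stabilizer G (x i) ⊓ stabilizer G w = F'.co (S i ⊓ S j) := by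
        intro w hwb huw hvw
        obtain ⟨k, hk, e1, e2⟩ := hx.second h hR he huw hwb
        obtain ⟨l, hl, e3, e4⟩ := hx.second h hR he hvw hwb
        rcases e2 with e2 | e2
        · rw [e2] at huw
          exact absurd huw (hA b F' x hx i k (Ne.symm hk))
        rcases e4 with e4 | e4
        · rw [e4] at hvw
          exact absurd hvw (hA b F' x hx j l (Ne.symm hl))
        rw [e2] at e4
        have h1 := F'.le_of_co_le e4.le
        rcases U_inj hR (Ne.symm hl) h1 with ⟨h2, h3⟩ | ⟨h2, h3⟩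
        · exact absurd h2.symm hij
        · rw [e1, h2]
      refine hx.inj h hR he huw hwb huw' hwb' ?_
      rw [key w hwb huw hvw, ← key w' hwb' huw' hvw']
      exact inf_le_right
    · intro T hpT hT
      obtain ⟨x, hx⟩ := F.exists_Nb h hR he
      have hsub : ∀ y, Relation.ReflTransGen (adj G) p y → y ∈ T := by
        intro y hy
        induction hy with
        | refl => exact hpT
        | tail _ hyz ih => exact hT _ ih _ hyz
      have hmap : ∀ (g : G) {u v : Ω}, Relation.ReflTransGen (adj G) u v →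
          Relation.ReflTransGen (adj G) (g • u) (g • v) := by
        intro g u v huv
        exact huv.lift (fun w => g • w) (fun a b hab => adj_smul g hab)
      have huniv : ∀ y, y ∈ {y | Relation.ReflTransGen (adj G) p y} := by
        apply h.eq_univ_of_two (a := p) (b := x 0) (hx.ne 0).symm
        · intro g hg y hy
          have := hmap g hy
          rw [mem_stabilizer_iff.1 hg] at this
          exact this
        · intro g hg y hy
          have h1 : Relation.ReflTransGen (adj G) (x 0) y := Relation.ReflTransGen.head (adj_symm h (hx.adj hR 0)) hy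
          have h2 := hmap g h1
          rw [mem_stabilizer_iff.1 hg] at h2
          exact Relation.ReflTransGen.head (hx.adj hR 0) h2
        · exact ⟨p, Relation.ReflTransGen.refl⟩
      intro y
      exact hsub y (huniv y)

end Cfsg.Agent.H814.EP9
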