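import Cfsg.Agent.H814.EP.PermB

/-!
# Subgroups of index 9 and 8 in `A_9`, `S_9` and their point stabilisers (helper814, S3499-IV-L, socle `A_9`)
-/

set_option autoImplicit false

namespace Cfsg.Agent.H814.EP9

open Equiv Equiv.Perm MulAction Subgroup Cfsg.Agent.H412.AltIndex
open scoped Pointwise

section idx

variable {α : Type*} [Fintype α] [DecidableEq α]

theorem exists_ne_three (h8 : 8 ≤ Nat.card α) (x y : α) : ∃ z, z ≠ x ∧ z ≠ y := by
  by_contra hcon
  push Not at hcon
  have h1 : (Finset.univ : Finset α) ⊆ {x, y} := by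
    intro z _
    rw [Finset.mem_insert, Finset.mem_singleton]
    by_cases h1 : z = x
    · exact Or.inl h1
    · exact Or.inr (hcon z h1)
  have h2 := Finset.card_le_card h1
  have h3 : ({x, y} : Finset α).card ≤ 2 := Finset.card_le_two
  rw [Finset.card_univ, ← Nat.card_eq_fintype_card] at h2
  omega

theorem relIndex_stab (h8 : 8 ≤ Nat.card α) {R : Subgroup (Perm α)} (hR : alternatingGroup α ≤ R) (x : α) :
    (stabilizer (Perm α) x).relIndex R = Nat.card α := by
  have h0 : IsPretransitive (alternatingGroup α) α :=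
    alternatingGroup.isPretransitive_of_three_le_card α (by omega)
  have h1 : IsPretransitive R α := by
    constructor
    intro a b
    obtain ⟨g, hg⟩ := h0.exists_smul_eq a b
    exact ⟨⟨g, hR g.2⟩, hg⟩
  have h2 : (stabilizer R x).index = Nat.card α := index_stabilizer_of_transitive _ _
  exact h2

theorem exists_cycle_fix (h8 : 8 ≤ Nat.card α) (x y : α) (hxy : x ≠ y) :
    ∃ σ ∈ alternatingGroup α, σ x = x ∧ σ y ≠ y := by
  obtain ⟨z, h1, h2⟩ := exists_ne_three h8 x y
  obtain ⟨w, h3, h4, h5⟩ : ∃ w, w ≠ x ∧ w ≠ y ∧ w ≠ z := by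
    by_contra hcon
    push Not at hcon
    have h1 : (Finset.univ : Finset α) ⊆ {x, y, z} := by
      intro w _
      rw [Finset.mem_insert, Finset.mem_insert, Finset.mem_singleton]
      by_cases h1 : w = x
      · exact Or.inl h1
      by_cases h2 : w = y
      · exact Or.inr (Or.inl h2)
      · exact Or.inr (Or.inr (hcon w h1 h2))
    have h2 := Finset.card_le_card h1
    have h3 : ({x, y, z} : Finset α).card ≤ 3 := Finset.card_le_three
    rw [Finset.card_univ, ← Nat.card_eq_fintype_card] at h2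
    omega
  refine ⟨swap y z * swap y w, (isThreeCycle_swap_mul_swap_same h2.symm h4.symm h5.symm).mem_alternatingGroup, ?_, ?_⟩
  · rw [Perm.mul_apply, swap_apply_of_ne_of_ne hxy h3.symm, swap_apply_of_ne_of_ne hxy h1.symm]
  · rw [Perm.mul_apply, swap_apply_left, swap_apply_of_ne_of_ne h4 h5]
    exact h4

theorem eq_stab {p k : ℕ} (hp : p.Prime) (hα : Nat.card α = p ^ k) (h8 : 8 ≤ Nat.card α) (h9 : Nat.card α ≤ 9)
    {R K : Subgroup (Perm α)} (hR : alternatingGroup α ≤ R) (hK : K ≤ R) (hi : K.relIndex R = Nat.card α) :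
    ∃ i : α, K = R ⊓ stabilizer (Perm α) i := by
  classical
  have hnt : Nontrivial α := Finite.one_lt_card_iff_nontrivial.1 (by omega)
  set K' : Subgroup (alternatingGroup α) := K.subgroupOf (alternatingGroup α) with hK'
  have hne : K' ≠ ⊤ := by
    intro h
    rw [hK', subgroupOf_eq_top] at h
    have h1 : K.relIndex R ≤ (alternatingGroup α).relIndex R := by
      apply relIndex_le_of_le_left h
      exact index_ne_zero_of_finite (H := (alternatingGroup α).subgroupOf R)
    have h2 : (alternatingGroup α).relIndex R ≤ (alternatingGroup α).index := by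
      rw [← relIndex_top_right]
      exact relIndex_le_of_le_right le_top (by rw [relIndex_top_right]; exact index_ne_zero_of_finite)
    rw [alternatingGroup.index_eq_two] at h2
    omega
  have h1 := card_le_index (by omega : 5 ≤ Nat.card α) K' hne
  have h2 : K'.index ≤ Nat.card α := by
    rw [← hi]
    exact relIndex_le_of_le_right hR (by rw [hi]; omega)
  have hidx : K'.index = p ^ k := by omega
  -- a fixed point
  obtain ⟨x, hx⟩ : ∃ x : α, K' ≤ MulAction.stabilizer (alternatingGroup α) x := by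
    by_cases ht : IsPretransitive K' α
    · exfalso
      apply hne
      have hp7 : ¬ 7 ∣ K'.index := by
        rw [hidx, ← hα]
        intro h
        have h3 : Nat.card α = 8 ∨ Nat.card α = 9 := by omega
        rcases h3 with h3 | h3 <;> rw [h3] at h <;> omega
      obtain ⟨g, hgc, hgs⟩ := exists_cycle (α := α) (r := 7) (by norm_num) (by decide)
        (by rw [← Nat.card_eq_fintype_card]; omega)
      have hg7 : g ^ 7 ^ 1 = 1 := by
        rw [pow_one]
        apply Subtype.ext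
        rw [Subgroup.coe_pow, Subgroup.coe_one, ← hgs, ← hgc.orderOf]
        exact pow_orderOf_eq_one _
      obtain ⟨y, hy⟩ := exists_conj_mem K' (by norm_num : Nat.Prime 7) hp7 g hg7
      have hprim : IsPreprimitive K' α := by
        have hcyc : ((y⁻¹ * g * y : alternatingGroup α) : Equiv.Perm α).IsCycle := by
          have := hgc.conj (g := ((y : Equiv.Perm α))⁻¹)
          simpa using this
        obtain ⟨z, hz⟩ : ∃ z : α, ((y⁻¹ * g * y : alternatingGroup α) : Equiv.Perm α) z ≠ z := by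
          obtain ⟨z, hz, _⟩ := hcyc
          exact ⟨z, hz⟩
        refine isPreprimitive_of_prime (by norm_num : Nat.Prime 7) (⟨y⁻¹ * g * y, hy⟩ : K') (fun w => ?_) (x := z) hz (by omega)
        have : (⟨y⁻¹ * g * y, hy⟩ : K') ^ 7 = 1 := by
          apply Subtype.ext
          rw [Subgroup.coe_pow, Subgroup.coe_one]
          have e : (y⁻¹ * g * y) ^ 7 = y⁻¹ * g ^ 7 * y := by
            have := conj_pow (a := y⁻¹) (b := g) (i := 7)
            rwa [inv_inv] at this
          have e2 : g ^ 7 = 1 := by rw [pow_one] at hg7; exact hg7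
          show (y⁻¹ * g * y) ^ 7 = 1
          rw [e, e2]
          group
        rw [this, one_smul]
      have hp5 : 5 ≠ p := by
        rintro rfl
        have h3 : Nat.card α = 8 ∨ Nat.card α = 9 := by omega
        have hk : k ≠ 0 := by
          rintro rfl
          rw [pow_zero] at hα
          omega
        have h4 : 5 ∣ Nat.card α := by rw [hα]; exact dvd_pow_self 5 hk
        omega
      exact eq_top_of_prim K' hp hidx hprim (by norm_num : Nat.Prime 5) (by norm_num) hp5
        (by rw [← Nat.card_eq_fintype_card]; omega)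
    · exact exists_fixed (by omega) K' hp hidx ht
  have h0 : IsPretransitive (alternatingGroup α) α :=
    alternatingGroup.isPretransitive_of_three_le_card α (by omega)
  have hst : (stabilizer (alternatingGroup α) x).index = Nat.card α := index_stabilizer_of_transitive _ _
  have hKst : K' = stabilizer (alternatingGroup α) x := by
    apply Subgroup.eq_of_le_of_card_ge hx
    have e1 := K'.card_mul_index
    have e2 := (stabilizer (alternatingGroup α) x).card_mul_index
    rw [hst] at e2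
    rw [hidx, ← hα, ← e2] at e1
    exact (Nat.eq_of_mul_eq_mul_right (by omega : 0 < Nat.card α) e1).ge
  have hfix : ∀ k ∈ K, k x = x := by
    intro k hk
    by_contra hkx
    have hkx' : k⁻¹ x ≠ x := by
      intro e
      apply hkx
      rw [Perm.inv_eq_iff_eq] at e
      exact e.symm
    obtain ⟨σ, hσ, e1, e2⟩ := exists_cycle_fix h8 x (k⁻¹ x) (Ne.symm hkx')
    have h3 : (⟨σ, hσ⟩ : alternatingGroup α) ∈ K' := by
      rw [hKst]
      exact e1
    have h4 : σ ∈ K := h3
    have h5 : k * σ * k⁻¹ ∈ K := mul_mem (mul_mem hk h4) (inv_mem hk)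
    have h6 : k * σ * k⁻¹ ∈ alternatingGroup α := (inferInstance : (alternatingGroup α).Normal).conj_mem σ hσ k
    have h7 : (⟨k * σ * k⁻¹, h6⟩ : alternatingGroup α) ∈ K' := h5
    rw [hKst] at h7
    have h8 : (k * σ * k⁻¹) x = x := h7
    apply e2
    rw [Perm.mul_apply, Perm.mul_apply] at h8
    rw [Perm.eq_inv_iff_eq]
    exact h8
  refine ⟨x, ?_⟩
  have hle : K ≤ R ⊓ stabilizer (Perm α) x := le_inf hK hfix
  apply Subgroup.eq_of_le_of_card_ge hle
  have e1 : K.relIndex R = Nat.card α := hi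
  have e2 : (R ⊓ stabilizer (Perm α) x).relIndex R = Nat.card α := by
    rw [inf_relIndex_left]
    exact relIndex_stab h8 hR x
  have e3 := relIndex_mul_relIndex K (R ⊓ stabilizer (Perm α) x) R hle inf_le_left
  rw [e1, e2] at e3
  have e4 : K.relIndex (R ⊓ stabilizer (Perm α) x) = 1 := by
    have : K.relIndex (R ⊓ stabilizer (Perm α) x) * Nat.card α = 1 * Nat.card α := by rw [e3, one_mul]
    exact Nat.eq_of_mul_eq_mul_right (by omega) this
  rw [relIndex_eq_one] at e4
  exact Subgroup.card_le_of_le e4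

end idx

/-- the stabiliser of a point -/
abbrev S (i : Fin 9) : Subgroup (Perm (Fin 9)) := stabilizer (Perm (Fin 9)) i

theorem mem_S {i : Fin 9} {σ : Perm (Fin 9)} : σ ∈ S i ↔ σ i = i := Iff.rfl

variable {R : Subgroup (Perm (Fin 9))} (hR : alternatingGroup (Fin 9) ≤ R)

include hR

theorem i9 {K : Subgroup (Perm (Fin 9))} (hK : K ≤ R) (hi : K.relIndex R = 9) : ∃ i, K = R ⊓ S i :=
  eq_stab (p := 3) (k := 2) (by norm_num) (by simp) (by simp) (by simp) hR hK (by simpa using hi)

theorem relS (i : Fin 9) : (R ⊓ S i).relIndex R = 9 := by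
  rw [inf_relIndex_left, relIndex_stab (by simp) hR i]
  simp

theorem cardS (i : Fin 9) : Nat.card (R ⊓ S i : Subgroup (Perm (Fin 9))) * 9 = Nat.card R := by
  have e := card_mul_index ((R ⊓ S i).subgroupOf R)
  have e1 : ((R ⊓ S i).subgroupOf R).index = 9 := relS hR i
  have e2 : Nat.card ((R ⊓ S i).subgroupOf R) = Nat.card (R ⊓ S i : Subgroup (Perm (Fin 9))) :=
    Nat.card_congr (subgroupOfEquivOfLe inf_le_left).toEquiv
  rw [e1, e2] at e
  exact e

theorem i9' {K : Subgroup (Perm (Fin 9))} (hK : K ≤ R) (hi : Nat.card K * 9 = Nat.card R) : ∃ i, K = R ⊓ S i := by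
  apply i9 hR hK
  have h1 := card_mul_index (K.subgroupOf R)
  have h2 : Nat.card (K.subgroupOf R) = Nat.card K := Nat.card_congr (subgroupOfEquivOfLe hK).toEquiv
  rw [h2, ← hi] at h1
  exact Nat.eq_of_mul_eq_mul_left Nat.card_pos h1

omit hR in
/-- the embedding of the symmetric group on the other points -/
theorem ofSub_range (j : Fin 9) :
    (Equiv.Perm.ofSubtype (p := fun y : Fin 9 => y ≠ j)).range = S j := by
  ext g
  constructor
  · rintro ⟨y, rfl⟩
    exact Equiv.Perm.ofSubtype_apply_of_not_mem _ (by simp)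
  · intro hg
    have hg1 : g j = j := hg
    have hg2 : ∀ y, g y ≠ j ↔ y ≠ j := by
      intro y
      constructor
      · rintro h rfl
        exact h hg1
      · intro h h'
        apply h
        exact g.injective (h'.trans hg1.symm)
    refine ⟨Equiv.Perm.subtypePerm (p := fun y => y ≠ j) g hg2, ?_⟩
    apply Equiv.Perm.ofSubtype_subtypePerm
    intro y hy hyx
    subst hyx
    exact hy hg1

theorem i8_core (j : Fin 9) : alternatingGroup {y : Fin 9 // y ≠ j} ≤
    R.comap (Equiv.Perm.ofSubtype (p := fun y : Fin 9 => y ≠ j)) := by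
  intro g hg
  rw [mem_comap]
  apply hR
  rw [mem_alternatingGroup] at hg ⊢
  rw [Equiv.Perm.sign_ofSubtype]
  exact hg

omit hR in
theorem card_sub (j : Fin 9) : Nat.card {y : Fin 9 // y ≠ j} = 8 := by
  rw [Nat.card_eq_fintype_card, Fintype.card_subtype_compl, Fintype.card_subtype_eq, Fintype.card_fin]

theorem i8 {j : Fin 9} {K : Subgroup (Perm (Fin 9))} (hK : K ≤ R ⊓ S j) (hi : K.relIndex (R ⊓ S j) = 8) :
    ∃ i, i ≠ j ∧ K = R ⊓ S j ⊓ S i := by
  set φ := Equiv.Perm.ofSubtype (p := fun y : Fin 9 => y ≠ j) with hφ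
  have hφr : φ.range = S j := ofSub_range j
  have h1 : (K.comap φ).relIndex (R.comap φ) = 8 := by
    rw [relIndex_comap, Subgroup.map_comap_eq, hφr, inf_comm]
    exact hi
  obtain ⟨i, hi'⟩ := eq_stab (p := 2) (k := 3) (by norm_num) (by rw [card_sub]; norm_num) (by rw [card_sub])
    (by rw [card_sub]; norm_num) (i8_core hR j) (Subgroup.comap_mono (hK.trans inf_le_left)) (by rw [h1, card_sub])
  refine ⟨i, i.2, ?_⟩
  have key : ∀ g' : Perm {y : Fin 9 // y ≠ j}, φ g' ∈ S i ↔ g' ∈ stabilizer (Perm {y : Fin 9 // y ≠ j}) i := by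
    intro g'
    rw [mem_S, hφ, Equiv.Perm.ofSubtype_apply_coe, mem_stabilizer_iff]
    constructor
    · intro h
      exact Subtype.ext h
    · intro h
      exact congrArg Subtype.val h
  ext g
  constructor
  · intro hg
    refine ⟨hK hg, ?_⟩
    obtain ⟨g', rfl⟩ : g ∈ φ.range := by rw [hφr]; exact (hK hg).2
    have h2 : g' ∈ K.comap φ := hg
    rw [hi'] at h2
    exact (key g').2 h2.2
  · rintro ⟨⟨h2, h3⟩, h4⟩
    obtain ⟨g', rfl⟩ : g ∈ φ.range := by rw [hφr]; exact h3
    have h5 : g' ∈ R.comap φ ⊓ stabilizer (Perm {y : Fin 9 // y ≠ j}) i := ⟨h2, (key g').1 h4⟩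
    rw [← hi'] at h5
    exact h5

theorem relS2 {i j : Fin 9} (hij : i ≠ j) : (R ⊓ S j ⊓ S i).relIndex (R ⊓ S j) = 8 := by
  set φ := Equiv.Perm.ofSubtype (p := fun y : Fin 9 => y ≠ j) with hφ
  have hφr : φ.range = S j := ofSub_range j
  rw [inf_relIndex_left]
  have h1 := relIndex_stab (by rw [card_sub]) (i8_core hR j) (⟨i, hij⟩ : {y : Fin 9 // y ≠ j})
  rw [card_sub] at h1
  have h2 : stabilizer (Perm {y : Fin 9 // y ≠ j}) (⟨i, hij⟩ : {y : Fin 9 // y ≠ j}) = (S i).comap φ := by
    ext g'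
    rw [mem_comap, mem_S, mem_stabilizer_iff]
    have e : φ g' i = (g' ⟨i, hij⟩ : Fin 9) := Equiv.Perm.ofSubtype_apply_coe g' ⟨i, hij⟩
    rw [e]
    constructor
    · intro h
      exact congrArg Subtype.val h
    · intro h
      exact Subtype.ext h
  rw [h2, relIndex_comap, Subgroup.map_comap_eq, hφr, inf_comm] at h1
  exact h1

theorem cardS2 {i j : Fin 9} (hij : i ≠ j) : Nat.card (R ⊓ S j ⊓ S i : Subgroup (Perm (Fin 9))) * 8 =
    Nat.card (R ⊓ S j : Subgroup (Perm (Fin 9))) := by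
  have e := card_mul_index ((R ⊓ S j ⊓ S i).subgroupOf (R ⊓ S j))
  have e1 : ((R ⊓ S j ⊓ S i).subgroupOf (R ⊓ S j)).index = 8 := relS2 hR hij
  have e2 : Nat.card ((R ⊓ S j ⊓ S i).subgroupOf (R ⊓ S j)) = Nat.card (R ⊓ S j ⊓ S i : Subgroup (Perm (Fin 9))) :=
    Nat.card_congr (subgroupOfEquivOfLe inf_le_left).toEquiv
  rw [e1, e2] at e
  exact e

theorem i8' {j : Fin 9} {K : Subgroup (Perm (Fin 9))} (hK : K ≤ R ⊓ S j)
    (hi : Nat.card K * 8 = Nat.card (R ⊓ S j : Subgroup (Perm (Fin 9)))) :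
    ∃ i, i ≠ j ∧ K = R ⊓ S j ⊓ S i := by
  apply i8 hR hK
  have h1 := card_mul_index (K.subgroupOf (R ⊓ S j))
  have h2 : Nat.card (K.subgroupOf (R ⊓ S j)) = Nat.card K := Nat.card_congr (subgroupOfEquivOfLe hK).toEquiv
  rw [h2, ← hi] at h1
  exact Nat.eq_of_mul_eq_mul_left Nat.card_pos h1

/-! ### small facts -/

theorem exists_map {i j k l : Fin 9} (hij : i ≠ j) (hkl : k ≠ l) : ∃ r ∈ R, r i = k ∧ r j = l := by
  have h4 : IsMultiplyPretransitive (alternatingGroup (Fin 9)) (Fin 9) (Nat.card (Fin 9) - 2) :=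
    alternatingGroup.isMultiplyPretransitive (Fin 9)
  have h5 : IsMultiplyPretransitive (alternatingGroup (Fin 9)) (Fin 9) 2 :=
    isMultiplyPretransitive_of_le (n := Nat.card (Fin 9) - 2) (by simp) (Nat.sub_le _ _)
  rw [is_two_pretransitive_iff] at h5
  obtain ⟨g, hg1, hg2⟩ := h5 hij hkl
  exact ⟨g, hR g.2, hg1, hg2⟩

/-- an even permutation fixing `i`, `j` and moving `k` to a point different from `i`, `j`, `l` -/
theorem exists_mv {i j k l : Fin 9} (hki : k ≠ i) (hkj : k ≠ j) : ∃ r ∈ R, r i = i ∧ r j = j ∧ r k ≠ k ∧ r k ≠ l := by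
  obtain ⟨y, h1, h2, h3, h4⟩ := exists_ne4 k l i j
  obtain ⟨σ, e1, e2, e3, e4⟩ := exists_three h1.symm hki hkj h3 h4
  exact ⟨σ, hR e1.mem_alternatingGroup, e3, e4, by rw [e2]; exact h1, by rw [e2]; exact h2⟩

theorem S_inj {i j : Fin 9} (h : R ⊓ S i ≤ S j) : i = j := by
  by_contra hij
  obtain ⟨r, hr, e1, -, e2, -⟩ := exists_mv hR (i := i) (j := i) (k := j) (l := j) (Ne.symm hij) (Ne.symm hij)
  exact e2 (h ⟨hr, e1⟩)

theorem S2_inj {i j k : Fin 9} (h : R ⊓ S i ⊓ S j ≤ S k) : k = i ∨ k = j := by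
  by_contra hcon
  push Not at hcon
  obtain ⟨r, hr, e1, e1', e2, -⟩ := exists_mv hR (i := i) (j := j) (k := k) (l := k) hcon.1 hcon.2
  exact e2 (h ⟨⟨hr, e1⟩, e1'⟩)

omit hR in
/-- the stabiliser of a pair -/
def U (i j : Fin 9) : Subgroup (Perm (Fin 9)) where
  carrier := {σ | (σ i = i ∧ σ j = j) ∨ (σ i = j ∧ σ j = i)}
  one_mem' := Or.inl ⟨rfl, rfl⟩
  mul_mem' := by
    rintro σ τ (⟨h1, h2⟩ | ⟨h1, h2⟩) (⟨h3, h4⟩ | ⟨h3, h4⟩)
    · left; exact ⟨by rw [Perm.mul_apply, h3, h1], by rw [Perm.mul_apply, h4, h2]⟩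
    · right; exact ⟨by rw [Perm.mul_apply, h3, h2], by rw [Perm.mul_apply, h4, h1]⟩
    · right; exact ⟨by rw [Perm.mul_apply, h3, h1], by rw [Perm.mul_apply, h4, h2]⟩
    · left; exact ⟨by rw [Perm.mul_apply, h3, h2], by rw [Perm.mul_apply, h4, h1]⟩
  inv_mem' := by
    rintro σ (⟨h1, h2⟩ | ⟨h1, h2⟩)
    · left; exact ⟨by rw [Perm.inv_eq_iff_eq, h1], by rw [Perm.inv_eq_iff_eq, h2]⟩
    · right; exact ⟨by rw [Perm.inv_eq_iff_eq, h2], by rw [Perm.inv_eq_iff_eq, h1]⟩

theorem U_inj {i j k l : Fin 9} (hkl : k ≠ l) (h : R ⊓ U i j ≤ U k l) : (k = i ∧ l = j) ∨ (k = j ∧ l = i) := by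
  have key : ∀ k l : Fin 9, R ⊓ U i j ≤ U k l → k = i ∨ k = j := by
    intro k l h
    by_contra hcon
    push Not at hcon
    obtain ⟨r, hr, e1, e1', e2, e3⟩ := exists_mv hR (i := i) (j := j) (k := k) (l := l) hcon.1 hcon.2
    have h1 : r ∈ R ⊓ U i j := ⟨hr, Or.inl ⟨e1, e1'⟩⟩
    rcases h h1 with h2 | h2
    · exact e2 h2.1
    · exact e3 h2.1
  have hsymm : U k l = U l k := by
    ext σ
    constructor
    · rintro (⟨h1, h2⟩ | ⟨h1, h2⟩)
      · exact Or.inl ⟨h2, h1⟩
      · exact Or.inr ⟨h2, h1⟩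
    · rintro (⟨h1, h2⟩ | ⟨h1, h2⟩)
      · exact Or.inl ⟨h2, h1⟩
      · exact Or.inr ⟨h2, h1⟩
  have h1 := key k l h
  have h2 := key l k (by rw [← hsymm]; exact h)
  rcases h1 with rfl | rfl
  · rcases h2 with rfl | rfl
    · exact absurd rfl hkl
    · exact Or.inl ⟨rfl, rfl⟩
  · rcases h2 with rfl | rfl
    · exact Or.inr ⟨rfl, rfl⟩
    · exact absurd rfl hkl

end Cfsg.Agent.H814.EP9
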