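import Cfsg.Agent.H284.EP.Crit
import Cfsg.Agent.H839.EP.AltFrame
import Cfsg.Agent.H814.EP.PermC

/-!
# Extremely primitive actions with point stabiliser `A_9` or `S_9`: frames (helper814, S3499-IV-L, socle `A_9`)
-/

set_option autoImplicit false

namespace Cfsg.Agent.H814.EP9

open Equiv Equiv.Perm MulAction Subgroup Cfsg.Agent.H284 Cfsg.Agent.H839.EP
open scoped Pointwise

/-- a frame at the point `p`: a faithful permutation representation of the stabiliser with image `R` -/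
structure Fr (R : Subgroup (Perm (Fin 9))) (G : Type*) {Ω : Type*} [Group G] [MulAction G Ω] (p : Ω) where
  ρ : stabilizer G p →* Perm (Fin 9)
  inj : Function.Injective ρ
  ran : ρ.range = R

variable {G Ω : Type*} [Group G] [MulAction G Ω] {R : Subgroup (Perm (Fin 9))} {p : Ω}

/-- translate -/
noncomputable def Fr.tr (F : Fr R G p) {q : Ω} {g : G} (hg : q = g • p) : Fr R G q where
  ρ := F.ρ.comp (MulAction.stabilizerEquivStabilizer hg).symm.toMonoidHom
  inj := F.inj.comp (MulAction.stabilizerEquivStabilizer hg).symm.injective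
  ran := by
    refine Eq.trans ?_ F.ran
    ext σ
    constructor
    · rintro ⟨x, rfl⟩
      exact ⟨_, rfl⟩
    · rintro ⟨x, rfl⟩
      refine ⟨MulAction.stabilizerEquivStabilizer hg x, ?_⟩
      show F.ρ ((MulAction.stabilizerEquivStabilizer hg).symm (MulAction.stabilizerEquivStabilizer hg x)) = F.ρ x
      rw [MulEquiv.symm_apply_apply]

namespace Fr

variable (F : Fr R G p)

def co (L : Subgroup (Perm (Fin 9))) : Subgroup G := (L.comap F.ρ).map (stabilizer G p).subtype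

def im (M : Subgroup G) : Subgroup (Perm (Fin 9)) := (M.subgroupOf (stabilizer G p)).map F.ρ

theorem mem_co {L : Subgroup (Perm (Fin 9))} {x : G} : x ∈ F.co L ↔ ∃ hx : x ∈ stabilizer G p, F.ρ ⟨x, hx⟩ ∈ L := by
  constructor
  · rintro ⟨y, hy, rfl⟩
    exact ⟨y.2, hy⟩
  · rintro ⟨hx, h⟩
    exact ⟨⟨x, hx⟩, h, rfl⟩

theorem mem_im {M : Subgroup G} {x : G} (hx : x ∈ stabilizer G p) : F.ρ ⟨x, hx⟩ ∈ F.im M ↔ x ∈ M := by
  constructor
  · rintro ⟨y, hy, e⟩
    have h1 := F.inj e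
    have h2 : (y : G) ∈ M := hy
    rw [h1] at h2
    exact h2
  · intro h
    exact ⟨⟨x, hx⟩, h, rfl⟩

theorem exists_rho {σ : Perm (Fin 9)} (hσ : σ ∈ R) : ∃ x, ∃ hx : x ∈ stabilizer G p, F.ρ ⟨x, hx⟩ = σ := by
  rw [← F.ran] at hσ
  obtain ⟨y, rfl⟩ := hσ
  exact ⟨y, y.2, rfl⟩

theorem rho_mem (x : stabilizer G p) : F.ρ x ∈ R := (SetLike.ext_iff.1 F.ran _).1 ⟨x, rfl⟩

theorem im_le_R (M : Subgroup G) : F.im M ≤ R := by
  rintro _ ⟨y, _, rfl⟩
  exact F.rho_mem y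

theorem co_le (L : Subgroup (Perm (Fin 9))) : F.co L ≤ stabilizer G p := by
  intro x hx
  exact (F.mem_co.1 hx).1

theorem co_im {M : Subgroup G} (hM : M ≤ stabilizer G p) : F.co (F.im M) = M := by
  ext x
  rw [mem_co]
  constructor
  · rintro ⟨hx, h⟩
    exact (F.mem_im hx).1 h
  · intro h
    exact ⟨hM h, (F.mem_im (hM h)).2 h⟩

theorem im_co {L : Subgroup (Perm (Fin 9))} (hL : L ≤ R) : F.im (F.co L) = L := by
  ext σ
  constructor
  · rintro ⟨y, hy, rfl⟩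
    obtain ⟨_, h⟩ := F.mem_co.1 hy
    exact h
  · intro h
    obtain ⟨x, hx, rfl⟩ := F.exists_rho (hL h)
    exact (F.mem_im hx).2 (F.mem_co.2 ⟨hx, h⟩)

theorem co_mono {L L' : Subgroup (Perm (Fin 9))} (h : L ≤ L') : F.co L ≤ F.co L' := by
  intro x hx
  obtain ⟨h1, h2⟩ := F.mem_co.1 hx
  exact F.mem_co.2 ⟨h1, h h2⟩

theorem im_mono {M M' : Subgroup G} (h : M ≤ M') : F.im M ≤ F.im M' := by
  rintro _ ⟨y, hy, rfl⟩
  exact ⟨y, h hy, rfl⟩

theorem co_inf (L L' : Subgroup (Perm (Fin 9))) : F.co (L ⊓ L') = F.co L ⊓ F.co L' := by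
  ext x
  rw [mem_inf, mem_co, mem_co, mem_co]
  constructor
  · rintro ⟨hx, h1, h2⟩
    exact ⟨⟨hx, h1⟩, ⟨hx, h2⟩⟩
  · rintro ⟨⟨hx, h1⟩, ⟨_, h2⟩⟩
    exact ⟨hx, h1, h2⟩

theorem co_R : F.co R = stabilizer G p := by
  apply le_antisymm (F.co_le R)
  intro x hx
  exact F.mem_co.2 ⟨hx, F.rho_mem _⟩

theorem co_R_inf (L : Subgroup (Perm (Fin 9))) : F.co (R ⊓ L) = F.co L := by
  rw [co_inf, co_R, inf_eq_right]
  exact F.co_le L

theorem le_of_co_le {L L' : Subgroup (Perm (Fin 9))} (h : F.co L ≤ F.co L') : R ⊓ L ≤ L' := by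
  rintro σ ⟨h1, h2⟩
  obtain ⟨x, hx, rfl⟩ := F.exists_rho h1
  obtain ⟨_, h3⟩ := F.mem_co.1 (h (F.mem_co.2 ⟨hx, h2⟩))
  exact h3

theorem card_im {M : Subgroup G} (hM : M ≤ stabilizer G p) : Nat.card (F.im M) = Nat.card M := by
  rw [← Nat.card_congr (subgroupOfEquivOfLe hM).toEquiv]
  exact (Nat.card_congr ((M.subgroupOf (stabilizer G p)).equivMapOfInjective _ F.inj).toEquiv).symm

theorem card_co (L : Subgroup (Perm (Fin 9))) : Nat.card (F.co L) = Nat.card (R ⊓ L : Subgroup (Perm (Fin 9))) := by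
  rw [← F.card_im (F.co_le L), ← F.co_R_inf, F.im_co inf_le_left]

include F in
theorem card_stab : Nat.card (stabilizer G p) = Nat.card R := by
  rw [← F.co_R, card_co, inf_idem]

theorem isPGroup {q : ℕ} {L : Subgroup (Perm (Fin 9))} (hL : IsPGroup q L) : IsPGroup q (F.co L) := by
  have h1 : IsPGroup q (L.comap F.ρ) := hL.comap_of_injective F.ρ F.inj
  exact h1.map _

/-- conjugation in the stabiliser -/
theorem cj_co {L L' : Subgroup (Perm (Fin 9))} {g : G} (hg : g ∈ stabilizer G p)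
    (h : ∀ σ, σ ∈ L' ↔ (F.ρ ⟨g, hg⟩)⁻¹ * σ * F.ρ ⟨g, hg⟩ ∈ L) : cj g (F.co L) = F.co L' := by
  ext x
  rw [mem_cj, mem_co, mem_co]
  have e : ∀ (h1 : g⁻¹ * x * g ∈ stabilizer G p) (h2 : x ∈ stabilizer G p),
      F.ρ ⟨g⁻¹ * x * g, h1⟩ = (F.ρ ⟨g, hg⟩)⁻¹ * F.ρ ⟨x, h2⟩ * F.ρ ⟨g, hg⟩ := by
    intro h1 h2
    rw [← map_inv, ← map_mul, ← map_mul]
    rfl
  constructor
  · rintro ⟨h1, h2⟩
    have h3 : x ∈ stabilizer G p := by
      have := mul_mem (mul_mem hg h1) (inv_mem hg)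
      have e : g * (g⁻¹ * x * g) * g⁻¹ = x := by group
      rwa [e] at this
    refine ⟨h3, (h _).2 ?_⟩
    rw [← e h1 h3]
    exact h2
  · rintro ⟨h1, h2⟩
    have h3 : g⁻¹ * x * g ∈ stabilizer G p := mul_mem (mul_mem (inv_mem hg) h1) hg
    refine ⟨h3, ?_⟩
    rw [e h3 h1]
    exact (h _).1 h2

theorem cj_co_S {g : G} (hg : g ∈ stabilizer G p) (i : Fin 9) :
    cj g (F.co (S i)) = F.co (S (F.ρ ⟨g, hg⟩ i)) := by
  apply F.cj_co hg
  intro σ
  rw [mem_S, mem_S, Perm.mul_apply, Perm.mul_apply, Perm.inv_eq_iff_eq]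

/-! ### lines -/

variable (h : EPA G Ω)

include F h in
theorem exists_fr (q : Ω) : Nonempty (Fr R G q) := by
  obtain ⟨g, hg⟩ := h.exists_smul p q
  exact ⟨F.tr hg.symm⟩

variable (hR : alternatingGroup (Fin 9) ≤ R)

include h hR

theorem maxNot [Finite Ω] [FaithfulSMul G Ω] {c : Ω} (hc : c ≠ p) :
    MaxNot R (F.im (stabilizer G p ⊓ stabilizer G c)) := by
  refine ⟨F.im_le_R _, ?_, ?_⟩
  · intro hle
    have h1 : F.co (alternatingGroup (Fin 9)) = ⊥ := by
      apply h.F1' hc (F.co_le _)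
      · intro g hg k hk
        obtain ⟨h2, h3⟩ := F.mem_co.1 hk
        refine F.mem_co.2 ⟨mul_mem (mul_mem hg h2) (inv_mem hg), ?_⟩
        have e : F.ρ ⟨g * k * g⁻¹, mul_mem (mul_mem hg h2) (inv_mem hg)⟩ = F.ρ ⟨g, hg⟩ * F.ρ ⟨k, h2⟩ * (F.ρ ⟨g, hg⟩)⁻¹ := by
          rw [← map_inv, ← map_mul, ← map_mul]
          rfl
        rw [e]
        exact (inferInstance : (alternatingGroup (Fin 9)).Normal).conj_mem _ h3 _
      · have h2 := F.co_mono hle
        rw [F.co_im inf_le_left] at h2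
        exact h2.trans inf_le_right
    have h2 := F.card_co (alternatingGroup (Fin 9))
    rw [h1, Subgroup.card_bot, inf_eq_right.2 hR] at h2
    have h3 := two_mul_nat_card_alternatingGroup (α := Fin 9)
    rw [Nat.card_perm, ← h2] at h3
    simp [Nat.factorial] at h3
  · intro K h1 h2
    rcases h.two p c hc (F.co K) (by
      have := F.co_mono h1
      rwa [F.co_im inf_le_left] at this) (F.co_le K) with h3 | h3
    · left
      rw [← F.im_co h2, h3]
    · right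
      rw [← F.im_co h2, h3, ← F.co_R, F.im_co le_rfl]

/-- the workhorse -/
theorem line_eq_co [Finite Ω] [FaithfulSMul G Ω] {c : Ω} (hc : c ≠ p) {K : Subgroup (Perm (Fin 9))}
    (hK : F.im (stabilizer G p ⊓ stabilizer G c) ≤ K) (hn : ¬ alternatingGroup (Fin 9) ≤ K) :
    stabilizer G p ⊓ stabilizer G c = F.co K := by
  have h1 := (F.maxNot h hR hc).eq_inf hR hK hn
  rw [← F.co_im (M := stabilizer G p ⊓ stabilizer G c) inf_le_left, h1, F.co_R_inf]

omit h hR in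
theorem le_im {L : Subgroup (Perm (Fin 9))} (hL : L ≤ R) {c : Ω} (h1 : F.co L ≤ stabilizer G c) :
    L ≤ F.im (stabilizer G p ⊓ stabilizer G c) := by
  rw [← F.im_co hL]
  exact F.im_mono (le_inf (F.co_le L) h1)

omit F h hR in
theorem not_alt_S (i : Fin 9) : ¬ alternatingGroup (Fin 9) ≤ S i := by
  intro hle
  obtain ⟨y, h1, -⟩ := exists_ne_three (α := Fin 9) (by simp) i i
  obtain ⟨σ, hσ, e1, e2⟩ := exists_cycle_fix (α := Fin 9) (by simp) y i h1
  exact e2 (hle hσ)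

omit F h hR in
theorem not_alt_U {i j : Fin 9} (hij : i ≠ j) : ¬ alternatingGroup (Fin 9) ≤ U i j := by
  intro hle
  obtain ⟨k, h1, h2⟩ := exists_ne_three (α := Fin 9) (by simp) i j
  obtain ⟨r, hr, e1, e2⟩ := exists_map (R := alternatingGroup (Fin 9)) le_rfl hij (Ne.symm h1 : i ≠ k)
  rcases hle hr with ⟨_, h3⟩ | ⟨h3, _⟩
  · exact h2 (e2.symm.trans h3)
  · exact hij (e1.symm.trans h3)

theorem line_D6 [Finite Ω] [FaithfulSMul G Ω] {c : Ω} (hc : c ≠ p) (hD : F.co D6 ≤ stabilizer G c) :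
    stabilizer G p ⊓ stabilizer G c = F.co (S 8) :=
  F.line_eq_co h hR hc (p1 (F.le_im (D6_le_alt.trans hR) hD) (F.maxNot h hR hc).nalt) (not_alt_S 8)

theorem line_S2 [Finite Ω] [FaithfulSMul G Ω] {c : Ω} (hc : c ≠ p) {i j : Fin 9} (hij : i ≠ j)
    (hD : F.co (S i ⊓ S j) ≤ stabilizer G c) : stabilizer G p ⊓ stabilizer G c = F.co (S i) ∨
      stabilizer G p ⊓ stabilizer G c = F.co (S j) ∨ stabilizer G p ⊓ stabilizer G c = F.co (U i j) := by
  rw [← F.co_R_inf (S i ⊓ S j)] at hD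
  have h1 := F.le_im inf_le_left hD
  rcases p2 hij (fun σ h2 h3 h4 => h1 ⟨hR h2, h3, h4⟩) (F.maxNot h hR hc).nalt with h2 | h2 | h2
  · left
    exact F.line_eq_co h hR hc h2 (not_alt_S i)
  · right; left
    exact F.line_eq_co h hR hc h2 (not_alt_S j)
  · right; right
    exact F.line_eq_co h hR hc h2 (not_alt_U hij)

omit h in
/-- subgroups of index 9 -/
theorem t4 [Finite G] {M : Subgroup G} (hM : M ≤ stabilizer G p) (hc : Nat.card M * 9 = Nat.card (stabilizer G p)) :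
    ∃ i, M = F.co (S i) := by
  obtain ⟨i, hi⟩ := i9' hR (F.im_le_R M) (by rw [F.card_im hM, hc, F.card_stab])
  refine ⟨i, ?_⟩
  rw [← F.co_im hM, hi, F.co_R_inf]

omit h in
theorem card_S [Finite G] (i : Fin 9) : Nat.card (F.co (S i)) * 9 = Nat.card (stabilizer G p) := by
  rw [F.card_co, F.card_stab, cardS hR]

omit h in
theorem card_S2 [Finite G] {i j : Fin 9} (hij : i ≠ j) :
    Nat.card (F.co (S j ⊓ S i)) * 8 = Nat.card (F.co (S j)) := by
  rw [F.card_co, F.card_co, ← inf_assoc, cardS2 hR hij]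

omit h in
/-- subgroups of index 8 -/
theorem t5 [Finite G] {j : Fin 9} {M : Subgroup G} (hM : M ≤ F.co (S j))
    (hc : Nat.card M * 8 = Nat.card (F.co (S j))) : ∃ i, i ≠ j ∧ M = F.co (S j ⊓ S i) := by
  have hM' := hM.trans (F.co_le _)
  obtain ⟨i, hij, hi⟩ := i8' hR (j := j) (K := F.im M) (by
    have := F.im_mono hM
    rwa [← F.co_R_inf (S j), F.im_co inf_le_left] at this) (by rw [F.card_im hM', hc, F.card_co])
  refine ⟨i, hij, ?_⟩
  rw [← F.co_im hM', hi, inf_assoc, F.co_R_inf]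

end Fr

/-! ### fixed points of `p`-groups -/

theorem fix_modEq [Finite Ω] {q : ℕ} [hq : Fact q.Prime] {P : Subgroup G} (hP : IsPGroup q P) :
    Nat.card Ω ≡ (fixPts Ω P).ncard [MOD q] := by
  have h1 := hP.card_modEq_card_fixedPoints (α := Ω)
  have h2 : (fixPts Ω P) = fixedPoints P Ω := by
    ext c
    constructor
    · rintro h ⟨x, hx⟩
      exact h hx
    · intro h x hx
      exact h ⟨x, hx⟩
  rw [h2]
  exact h1

theorem ncard_fix_cj [Finite Ω] (M : Subgroup G) (g : G) : (fixPts Ω (cj g M)).ncard = (fixPts Ω M).ncard := by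
  symm
  refine Set.ncard_congr (fun (x : Ω) _ => g • x) ?_ ?_ ?_
  · intro x hx
    exact smul_mem_fixPts.2 hx
  · intro x y _ _ e
    exact smul_left_cancel g e
  · intro x hx
    refine ⟨g⁻¹ • x, ?_, smul_inv_smul _ _⟩
    rw [← smul_inv_smul g x] at hx
    exact smul_mem_fixPts.1 hx

end Cfsg.Agent.H814.EP9
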