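import Cfsg.Agent.H412.AltIndex

/-!
# Subgroups of `S_9` with a large subgroup (helper814, S3499-IV-L, socle `A_9`)

* `p1` : a subgroup which contains the Sylow 2-subgroup of `A_8` and not `A_9` fixes `8`;
* `p2` : a subgroup which contains `A_7` and not `A_9` fixes one of the two points or the pair;
* `p3` : a subgroup which contains `C_3 wr C_3` and not `A_9` preserves the three triples.
-/

set_option autoImplicit false

namespace Cfsg.Agent.H814.EP9

open Equiv Equiv.Perm MulAction Subgroup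
open scoped Pointwise

/-- primitivity by blocks through one point -/
theorem prim_of {M : Subgroup (Perm (Fin 9))} (x₀ : Fin 9) (htr : ∀ y, ∃ m ∈ M, m x₀ = y)
    (hB : ∀ B : Set (Fin 9), x₀ ∈ B → (∀ m ∈ M, ∀ b ∈ B, m b ∈ B → ∀ c ∈ B, m c ∈ B) → B.ncard ∣ 9 →
      B.ncard ≤ 1 ∨ 5 ≤ B.ncard) : IsPreprimitive M (Fin 9) := by
  have hM : IsPretransitive M (Fin 9) := (isPretransitive_iff_base x₀).2 (fun y => by
    obtain ⟨m, hm, e⟩ := htr y
    exact ⟨⟨m, hm⟩, e⟩)
  apply IsPreprimitive.of_isTrivialBlock_base x₀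
  intro B hx hBl
  rcases hB B hx (by
    intro m hm b hb hmb c hc
    have h1 : (⟨m, hm⟩ : M) • B = B := hBl.smul_eq_of_mem hb hmb
    rw [← h1]
    exact Set.smul_mem_smul_set hc) (by
    have := hBl.ncard_dvd_card ⟨x₀, hx⟩
    rwa [Nat.card_eq_fintype_card, Fintype.card_fin] at this) with h1 | h1
  · left
    exact (Set.ncard_le_one (Set.toFinite _)).1 h1
  · right
    apply hBl.eq_univ_of_card_lt
    rw [Nat.card_eq_fintype_card, Fintype.card_fin]
    omega

theorem exists_ne4 (x y i j : Fin 9) : ∃ z, z ≠ x ∧ z ≠ y ∧ z ≠ i ∧ z ≠ j := by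
  by_contra hcon
  push Not at hcon
  have h1 : (Finset.univ : Finset (Fin 9)) ⊆ {x, y, i, j} := by
    intro z _
    rw [Finset.mem_insert, Finset.mem_insert, Finset.mem_insert, Finset.mem_singleton]
    by_cases h1 : z = x
    · exact Or.inl h1
    by_cases h2 : z = y
    · exact Or.inr (Or.inl h2)
    by_cases h3 : z = i
    · exact Or.inr (Or.inr (Or.inl h3))
    exact Or.inr (Or.inr (Or.inr (hcon z h1 h2 h3)))
  have h2 := Finset.card_le_card h1
  have h3 : ({x, y, i, j} : Finset (Fin 9)).card ≤ 4 := Finset.card_le_four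
  rw [Finset.card_univ, Fintype.card_fin] at h2
  omega

theorem exists_three {i j : Fin 9} {x y : Fin 9} (hxy : x ≠ y) (hxi : x ≠ i) (hxj : x ≠ j) (hyi : y ≠ i) (hyj : y ≠ j) :
    ∃ σ : Perm (Fin 9), σ.IsThreeCycle ∧ σ x = y ∧ σ i = i ∧ σ j = j := by
  obtain ⟨z, h1, h2, h3, h4⟩ := exists_ne4 x y i j
  refine ⟨swap x z * swap x y, isThreeCycle_swap_mul_swap_same h1.symm hxy h2, ?_, ?_, ?_⟩
  · rw [Perm.mul_apply, swap_apply_left, swap_apply_of_ne_of_ne hxy.symm h2.symm]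
  · rw [Perm.mul_apply, swap_apply_of_ne_of_ne hxi.symm hyi.symm, swap_apply_of_ne_of_ne hxi.symm h3.symm]
  · rw [Perm.mul_apply, swap_apply_of_ne_of_ne hxj.symm hyj.symm, swap_apply_of_ne_of_ne hxj.symm h4.symm]

theorem p2 {M : Subgroup (Perm (Fin 9))} {i j : Fin 9} (hij : i ≠ j)
    (hM : ∀ σ : Perm (Fin 9), σ ∈ alternatingGroup (Fin 9) → σ i = i → σ j = j → σ ∈ M)
    (hn : ¬ alternatingGroup (Fin 9) ≤ M) :
    (∀ m ∈ M, m i = i) ∨ (∀ m ∈ M, m j = j) ∨ ∀ m ∈ M, (m i = i ∧ m j = j) ∨ (m i = j ∧ m j = i) := by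
  by_contra hcon
  push Not at hcon
  obtain ⟨⟨m₁, hm₁, e₁⟩, ⟨m₂, hm₂, e₂⟩, m₃, hm₃, e₃, e₄⟩ := hcon
  have hO : ∀ x y : Fin 9, x ≠ i → x ≠ j → y ≠ i → y ≠ j → ∃ m ∈ M, m x = y ∧ m i = i := by
    intro x y hxi hxj hyi hyj
    by_cases hxy : x = y
    · exact ⟨1, one_mem _, hxy, rfl⟩
    obtain ⟨σ, h1, h2, h3, h4⟩ := exists_three hxy hxi hxj hyi hyj
    exact ⟨σ, hM σ h1.mem_alternatingGroup h3 h4, h2, h3⟩
  have hO' : ∀ x y : Fin 9, x ≠ i → x ≠ j → y ≠ i → y ≠ j → ∃ m ∈ M, m x = y := fun x y h1 h2 h3 h4 => by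
    obtain ⟨m, hm, e, _⟩ := hO x y h1 h2 h3 h4
    exact ⟨m, hm, e⟩
  have hs : ∀ {x y : Fin 9}, (∃ m ∈ M, m x = y) → ∃ m ∈ M, m y = x := by
    rintro x _ ⟨m, hm, rfl⟩
    exact ⟨m⁻¹, inv_mem hm, by simp⟩
  have ht : ∀ {x y z : Fin 9}, (∃ m ∈ M, m x = y) → (∃ m ∈ M, m y = z) → ∃ m ∈ M, m x = z := by
    rintro x _ _ ⟨m, hm, rfl⟩ ⟨m', hm', rfl⟩
    exact ⟨m' * m, mul_mem hm' hm, rfl⟩
  have htr : ∀ y, ∃ m ∈ M, m i = y := by
    have key : (∃ m ∈ M, m i = j) ∧ ∀ x, x ≠ i → x ≠ j → ∃ m ∈ M, m i = x := by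
      by_cases h3 : m₃ i ≠ i ∧ m₃ i ≠ j
      · have h4 : ∀ x, x ≠ i → x ≠ j → ∃ m ∈ M, m i = x := fun x hx hx' =>
          ht ⟨m₃, hm₃, rfl⟩ (hO' _ _ h3.1 h3.2 hx hx')
        refine ⟨?_, h4⟩
        by_cases h5 : m₂ j = i
        · exact hs ⟨m₂, hm₂, h5⟩
        · exact ht (h4 _ h5 e₂) (hs ⟨m₂, hm₂, rfl⟩)
      · have h3' : m₃ j ≠ i ∧ m₃ j ≠ j := by
          constructor
          · intro h5
            have h6 : m₃ i ≠ i := fun h => hij (m₃.injective (h.trans h5.symm))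
            have h7 : m₃ i = j := by
              by_contra h7
              exact h3 ⟨h6, h7⟩
            exact e₄ h7 h5
          · intro h5
            have h6 : m₃ i ≠ j := fun h => hij (m₃.injective (h.trans h5.symm))
            have h7 : m₃ i = i := by
              by_contra h7
              exact h3 ⟨h7, h6⟩
            exact e₃ h7 h5
        have h4 : ∀ x, x ≠ i → x ≠ j → ∃ m ∈ M, m j = x := fun x hx hx' =>
          ht ⟨m₃, hm₃, rfl⟩ (hO' _ _ h3'.1 h3'.2 hx hx')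
        have h5 : ∃ m ∈ M, m i = j := by
          by_cases h5 : m₁ i = j
          · exact ⟨m₁, hm₁, h5⟩
          · exact hs (ht (h4 _ e₁ h5) (hs ⟨m₁, hm₁, rfl⟩))
        exact ⟨h5, fun x hx hx' => ht h5 (h4 x hx hx')⟩
    intro y
    by_cases h1 : y = i
    · exact ⟨1, one_mem _, h1.symm⟩
    by_cases h2 : y = j
    · rw [h2]; exact key.1
    · exact key.2 y h1 h2
  have hprim : IsPreprimitive M (Fin 9) := by
    apply prim_of i htr
    intro B hi hB hd
    by_cases hb : ∃ b ∈ B, b ≠ i ∧ b ≠ j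
    · right
      obtain ⟨b, hbB, hbi, hbj⟩ := hb
      have h1 : ({j}ᶜ : Set (Fin 9)) ⊆ B := by
        intro y hy
        by_cases hyi : y = i
        · rw [hyi]; exact hi
        obtain ⟨m, hm, e, e'⟩ := hO b y hbi hbj hyi hy
        rw [← e]
        exact hB m hm i hi (by rw [e']; exact hi) b hbB
      have h2 := Set.ncard_le_ncard h1 (Set.toFinite _)
      have h3 := Set.ncard_add_ncard_compl ({j} : Set (Fin 9))
      rw [Set.ncard_singleton, Nat.card_eq_fintype_card, Fintype.card_fin] at h3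
      omega
    · left
      push Not at hb
      have h1 : B ⊆ {i, j} := by
        intro b hbB
        by_cases h : b = i
        · exact Or.inl h
        · exact Or.inr (hb b hbB h)
      have h2 := Set.ncard_le_ncard h1 (Set.toFinite _)
      have h3 : ({i, j} : Set (Fin 9)).ncard ≤ 2 := Set.ncard_insert_le _ _ |>.trans (by rw [Set.ncard_singleton])
      by_contra h4
      have h5 : B.ncard = 2 := by omega
      rw [h5] at hd
      omega
  apply hn
  obtain ⟨x, hx1, hx2, -, -⟩ := exists_ne4 i j i j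
  obtain ⟨y, hy1, hy2, hy3, -⟩ := exists_ne4 i j x x
  obtain ⟨σ, h1, h2, h3, h4⟩ := exists_three hy3.symm hx1 hx2 hy1 hy2
  exact alternatingGroup_le_of_isPreprimitive_of_isThreeCycle_mem hprim h1 (hM σ h1.mem_alternatingGroup h3 h4)

theorem alt_of_three {M : Subgroup (Perm (Fin 9))} (hp : IsPreprimitive M (Fin 9)) {g : Perm (Fin 9)} (hg : g ∈ M)
    (h3 : g.support.card = 3) : alternatingGroup (Fin 9) ≤ M :=
  alternatingGroup_le_of_isPreprimitive_of_isThreeCycle_mem hp (card_support_eq_three_iff.1 h3) hg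

theorem alt_of_five {M : Subgroup (Perm (Fin 9))} (hp : IsPreprimitive M (Fin 9)) {g : Perm (Fin 9)} (hg : g ∈ M)
    (h5 : g ^ 5 = 1) (hs : g.support.card = 5) : alternatingGroup (Fin 9) ≤ M := by
  have h1 : g ≠ 1 := by
    rintro rfl
    rw [Equiv.Perm.support_one] at hs
    simp at hs
  have : Fact (Nat.Prime 5) := ⟨by norm_num⟩
  have ho : orderOf g = 5 := orderOf_eq_prime h5 h1
  have hc : g.IsCycle := by
    apply isCycle_of_prime_order'
    · rw [ho]; norm_num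
    · rw [ho, Fintype.card_fin]; norm_num
  exact Cfsg.Agent.S0713.result M hp (p := 5) (by norm_num) (by simp) (by simp) hc hs hg

end Cfsg.Agent.H814.EP9
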