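import Cfsg.Agent.H814.EP.Perm

/-!
# The Sylow 2-subgroup of `A_8` and `C_3 wr C_3` in `S_9` (helper814, S3499-IV-L, socle `A_9`)
-/

set_option autoImplicit false

namespace Cfsg.Agent.H814.EP9

open Equiv Equiv.Perm MulAction Subgroup
open scoped Pointwise

theorem pg_zpowers {G : Type*} [Group G] {p : ℕ} {g : G} {m : ℕ} (hgp : g ^ p ^ m = 1) : IsPGroup p (zpowers g) := by
  rintro ⟨y, hy⟩
  obtain ⟨j, rfl⟩ := Subgroup.mem_zpowers_iff.1 hy
  refine ⟨m, ?_⟩
  ext
  simp only [SubmonoidClass.mk_pow, Subgroup.coe_one]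
  rw [← zpow_natCast, ← zpow_mul, mul_comm, zpow_mul, zpow_natCast, hgp, one_zpow]

theorem pg_step {G : Type*} [Group G] [Finite G] {p : ℕ} {K : Subgroup G} (hK : IsPGroup p K) {g : G}
    (hg : K ≤ K.comap (MulAut.conj g).toMonoidHom) {m : ℕ} (hgp : g ^ p ^ m = 1) :
    IsPGroup p (K ⊔ zpowers g : Subgroup G) := by
  apply hK.to_sup_of_normal_left' (pg_zpowers hgp)
  rw [zpowers_le, mem_normalizer_iff_map_conj_eq]
  apply Subgroup.eq_of_le_of_card_ge (map_le_iff_le_comap.2 hg)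
  exact (Nat.card_congr (K.equivMapOfInjective _ (MulAut.conj g).injective).toEquiv).le

def a1 : Perm (Fin 9) := swap 0 1 * swap 2 3
def a2 : Perm (Fin 9) := swap 0 2 * swap 1 3
def a3 : Perm (Fin 9) := swap 4 5 * swap 6 7
def a4 : Perm (Fin 9) := swap 4 6 * swap 5 7
def a5 : Perm (Fin 9) := swap 0 1 * swap 4 5
def a6 : Perm (Fin 9) := swap 0 4 * swap 1 5 * swap 2 6 * swap 3 7

def D1 : Subgroup (Perm (Fin 9)) := zpowers a1
def D2 : Subgroup (Perm (Fin 9)) := D1 ⊔ zpowers a2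
def D3 : Subgroup (Perm (Fin 9)) := D2 ⊔ zpowers a3
def D4 : Subgroup (Perm (Fin 9)) := D3 ⊔ zpowers a4
def D5 : Subgroup (Perm (Fin 9)) := D4 ⊔ zpowers a5
/-- a Sylow 2-subgroup of the alternating group on `0, …, 7` -/
def D6 : Subgroup (Perm (Fin 9)) := D5 ⊔ zpowers a6

theorem h12 : D1 ≤ D2 := le_sup_left
theorem h23 : D2 ≤ D3 := le_sup_left
theorem h34 : D3 ≤ D4 := le_sup_left
theorem h45 : D4 ≤ D5 := le_sup_left
theorem h56 : D5 ≤ D6 := le_sup_left

theorem m1 : a1 ∈ D1 := mem_zpowers _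
theorem m2 : a2 ∈ D2 := (le_sup_right : zpowers a2 ≤ D2) (mem_zpowers _)
theorem m3 : a3 ∈ D3 := (le_sup_right : zpowers a3 ≤ D3) (mem_zpowers _)
theorem m4 : a4 ∈ D4 := (le_sup_right : zpowers a4 ≤ D4) (mem_zpowers _)
theorem m5 : a5 ∈ D5 := (le_sup_right : zpowers a5 ≤ D5) (mem_zpowers _)
theorem m6 : a6 ∈ D6 := (le_sup_right : zpowers a6 ≤ D6) (mem_zpowers _)

theorem conj_le {K L : Subgroup (Perm (Fin 9))} {g k k' : Perm (Fin 9)} (e : g * k * g⁻¹ = k') (h : k' ∈ L)
    (hK : K ≤ L.comap (MulAut.conj g).toMonoidHom) : K ⊔ zpowers k ≤ L.comap (MulAut.conj g).toMonoidHom := by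
  refine sup_le hK (zpowers_le.2 ?_)
  show g * k * g⁻¹ ∈ L
  rw [e]
  exact h

theorem conj_le' {L : Subgroup (Perm (Fin 9))} {g k k' : Perm (Fin 9)} (e : g * k * g⁻¹ = k') (h : k' ∈ L) :
    zpowers k ≤ L.comap (MulAut.conj g).toMonoidHom := by
  refine zpowers_le.2 ?_
  show g * k * g⁻¹ ∈ L
  rw [e]
  exact h

theorem isPGroup_D6 : IsPGroup 2 D6 := by
  have e1 : IsPGroup 2 D1 := pg_zpowers (m := 1) (by decide)
  have e2 : IsPGroup 2 D2 := pg_step e1 (conj_le' (k' := a1) (by decide) m1) (m := 1) (by decide)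
  have e3 : IsPGroup 2 D3 := pg_step e2 (conj_le (k' := a2) (by decide) m2
    (conj_le' (k' := a1) (by decide) (h12 m1))) (m := 1) (by decide)
  have e4 : IsPGroup 2 D4 := pg_step e3 (conj_le (k' := a3) (by decide) m3 (conj_le (k' := a2) (by decide) (h23 m2)
    (conj_le' (k' := a1) (by decide) (h23 (h12 m1))))) (m := 1) (by decide)
  have e5 : IsPGroup 2 D5 := pg_step e4 (conj_le (k' := a3 * a4) (by decide) (mul_mem (h34 m3) m4)
    (conj_le (k' := a3) (by decide) (h34 m3)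
    (conj_le (k' := a1 * a2) (by decide) (mul_mem (h34 (h23 (h12 m1))) (h34 (h23 m2)))
    (conj_le' (k' := a1) (by decide) (h34 (h23 (h12 m1))))))) (m := 1) (by decide)
  exact pg_step e5 (conj_le (k' := a5) (by decide) m5 (conj_le (k' := a2) (by decide) (h45 (h34 (h23 m2)))
    (conj_le (k' := a1) (by decide) (h45 (h34 (h23 (h12 m1))))
    (conj_le (k' := a4) (by decide) (h45 m4)
    (conj_le' (k' := a3) (by decide) (h45 (h34 m3))))))) (m := 1) (by decide)

theorem D6_le {L : Subgroup (Perm (Fin 9))} (h1 : a1 ∈ L) (h2 : a2 ∈ L) (h3 : a3 ∈ L) (h4 : a4 ∈ L) (h5 : a5 ∈ L)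
    (h6 : a6 ∈ L) : D6 ≤ L :=
  sup_le (sup_le (sup_le (sup_le (sup_le (zpowers_le.2 h1) (zpowers_le.2 h2)) (zpowers_le.2 h3)) (zpowers_le.2 h4))
    (zpowers_le.2 h5)) (zpowers_le.2 h6)

theorem D6_le_alt : D6 ≤ alternatingGroup (Fin 9) := by
  apply D6_le <;> (rw [mem_alternatingGroup]; decide)

theorem D6_fix {d : Perm (Fin 9)} (hd : d ∈ D6) : d 8 = 8 := by
  have : D6 ≤ stabilizer (Perm (Fin 9)) (8 : Fin 9) := by
    apply D6_le <;> (rw [mem_stabilizer_iff]; decide)
  exact this hd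

def dts : List (Perm (Fin 9)) := [swap 0 1 * swap 2 3, swap 0 2 * swap 1 3, swap 0 3 * swap 1 2, swap 4 5 * swap 6 7,
  swap 4 6 * swap 5 7, swap 4 7 * swap 5 6, swap 0 1 * swap 4 5, swap 2 3 * swap 6 7, swap 0 1 * swap 6 7,
  swap 2 3 * swap 4 5]

theorem dts_mem {d : Perm (Fin 9)} (hd : d ∈ dts) : d ∈ D6 := by
  have k1 : a1 ∈ D6 := h56 (h45 (h34 (h23 (h12 m1))))
  have k2 : a2 ∈ D6 := h56 (h45 (h34 (h23 m2)))
  have k3 : a3 ∈ D6 := h56 (h45 (h34 m3))
  have k4 : a4 ∈ D6 := h56 (h45 m4)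
  have k5 : a5 ∈ D6 := h56 m5
  simp only [dts, List.mem_cons, List.not_mem_nil, or_false] at hd
  rcases hd with rfl | rfl | rfl | rfl | rfl | rfl | rfl | rfl | rfl | rfl
  · exact k1
  · exact k2
  · have e : (swap 0 3 * swap 1 2 : Perm (Fin 9)) = a1 * a2 := by decide
    rw [e]; exact mul_mem k1 k2
  · exact k3
  · exact k4
  · have e : (swap 4 7 * swap 5 6 : Perm (Fin 9)) = a3 * a4 := by decide
    rw [e]; exact mul_mem k3 k4
  · exact k5
  · have e : (swap 2 3 * swap 6 7 : Perm (Fin 9)) = a5 * a1 * a3 := by decide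
    rw [e]; exact mul_mem (mul_mem k5 k1) k3
  · have e : (swap 0 1 * swap 6 7 : Perm (Fin 9)) = a5 * a3 := by decide
    rw [e]; exact mul_mem k5 k3
  · have e : (swap 2 3 * swap 4 5 : Perm (Fin 9)) = a1 * a5 := by decide
    rw [e]; exact mul_mem k1 k5

def good (y : Perm (Fin 9)) : Bool :=
  decide (y.support.card = 3) || decide ((y * y).support.card = 3) ||
    (decide (y.support.card = 5) && decide (∀ x, y (y (y (y (y x)))) = x))

def chk (p q r : Fin 9) : Bool :=
  decide (p = 8) || decide (q = 8) || decide (r = 8) || decide (p = q) || decide (p = r) || decide (q = r) ||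
    dts.any (fun d => good (swap 8 p * swap q r * d))

theorem chk_true : ∀ p q r : Fin 9, chk p q r = true := by
  decide +kernel

theorem exists_d {p q r : Fin 9} (h1 : p ≠ 8) (h2 : q ≠ 8) (h3 : r ≠ 8) (h4 : p ≠ q) (h5 : p ≠ r) (h6 : q ≠ r) :
    ∃ d ∈ dts, good (swap 8 p * swap q r * d) = true := by
  have h := chk_true p q r
  unfold chk at h
  simp only [h1, h2, h3, h4, h5, h6, decide_false, Bool.false_or, List.any_eq_true] at h
  exact h

theorem alt_of_good {M : Subgroup (Perm (Fin 9))} (hp : IsPreprimitive M (Fin 9)) {g : Perm (Fin 9)} (hg : g ∈ M)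
    (h : good g = true) : alternatingGroup (Fin 9) ≤ M := by
  unfold good at h
  simp only [Bool.or_eq_true, Bool.and_eq_true, decide_eq_true_eq] at h
  rcases h with (h | h) | ⟨h, h'⟩
  · exact alt_of_three hp hg h
  · exact alt_of_three hp (mul_mem hg hg) h
  · refine alt_of_five hp hg ?_ h
    ext x
    have := h' x
    simp only [pow_succ, pow_zero, one_mul, Perm.mul_apply, Perm.one_apply]
    rw [this]

theorem D6_trans : ∀ u : Fin 9, u ≠ 8 → ∃ d ∈ D6, d 0 = u := by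
  intro u hu
  have k1 : a1 ∈ D6 := h56 (h45 (h34 (h23 (h12 m1))))
  have k2 : a2 ∈ D6 := h56 (h45 (h34 (h23 m2)))
  fin_cases u
  · exact ⟨1, one_mem _, rfl⟩
  · exact ⟨a1, k1, by decide⟩
  · exact ⟨a2, k2, by decide⟩
  · exact ⟨a1 * a2, mul_mem k1 k2, by decide⟩
  · exact ⟨a6, m6, by decide⟩
  · exact ⟨a6 * a1, mul_mem m6 k1, by decide⟩
  · exact ⟨a6 * a2, mul_mem m6 k2, by decide⟩
  · exact ⟨a6 * (a1 * a2), mul_mem m6 (mul_mem k1 k2), by decide⟩
  · exact absurd rfl hu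

theorem D6_trans' (u v : Fin 9) (hu : u ≠ 8) (hv : v ≠ 8) : ∃ d ∈ D6, d u = v := by
  obtain ⟨d, hd, rfl⟩ := D6_trans u hu
  obtain ⟨e, he, rfl⟩ := D6_trans v hv
  exact ⟨e * d⁻¹, mul_mem he (inv_mem hd), by simp⟩

theorem p1 {M : Subgroup (Perm (Fin 9))} (hD : D6 ≤ M) (hn : ¬ alternatingGroup (Fin 9) ≤ M) : ∀ m ∈ M, m 8 = 8 := by
  by_contra hcon
  push Not at hcon
  obtain ⟨m, hm, h8⟩ := hcon
  apply hn
  have hprim : IsPreprimitive M (Fin 9) := by
    apply prim_of 8
    · intro y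
      by_cases hy : y = 8
      · exact ⟨1, one_mem _, hy.symm⟩
      obtain ⟨d, hd, e⟩ := D6_trans' _ y h8 hy
      exact ⟨d * m, mul_mem (hD hd) hm, e⟩
    · intro B h8B hB _
      by_cases hb : ∃ b ∈ B, b ≠ 8
      · right
        obtain ⟨b, hbB, hb8⟩ := hb
        have h1 : B = Set.univ := by
          rw [Set.eq_univ_iff_forall]
          intro y
          by_cases hy : y = 8
          · rw [hy]; exact h8B
          obtain ⟨d, hd, e⟩ := D6_trans' b y hb8 hy
          rw [← e]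
          exact hB d (hD hd) 8 h8B (by rw [D6_fix hd]; exact h8B) b hbB
        rw [h1, Set.ncard_univ, Nat.card_eq_fintype_card, Fintype.card_fin]
        norm_num
      · left
        push Not at hb
        have h1 : B ⊆ {8} := fun b hbB => hb b hbB
        have h2 := Set.ncard_le_ncard h1 (Set.toFinite _)
        rwa [Set.ncard_singleton] at h2
  -- a double transposition moving `8`
  have key : ∃ p q r : Fin 9, p ≠ 8 ∧ q ≠ 8 ∧ r ≠ 8 ∧ p ≠ q ∧ p ≠ r ∧ q ≠ r ∧ swap 8 p * swap q r ∈ M := by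
    have hsw : ∀ a b c d : Fin 9, a ≠ b → c ≠ d → a ≠ c → a ≠ d → b ≠ c → b ≠ d → swap a b * swap c d ∈ M →
        m a = 8 ∨ m b = 8 ∨ m c = 8 ∨ m d = 8 →
        ∃ p q r : Fin 9, p ≠ 8 ∧ q ≠ 8 ∧ r ≠ 8 ∧ p ≠ q ∧ p ≠ r ∧ q ≠ r ∧ swap 8 p * swap q r ∈ M := by
      intro a b c d hab hcd hac had hbc hbd hx hmx
      have h1 : swap (m a) (m b) * swap (m c) (m d) ∈ M := by
        have e1 : m * (swap a b * swap c d) * m⁻¹ = swap (m a) (m b) * swap (m c) (m d) := by
          rw [swap_apply_apply, swap_apply_apply]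
          group
        rw [← e1]
        exact mul_mem (mul_mem hm hx) (inv_mem hm)
      have inj : ∀ {x y : Fin 9}, x ≠ y → m x ≠ m y := fun h e => h (m.injective e)
      have hcomm : swap (m a) (m b) * swap (m c) (m d) = swap (m c) (m d) * swap (m a) (m b) := by
        have e1 : Disjoint (swap (m a) (m b)) (swap (m c) (m d)) := by
          rw [disjoint_iff_disjoint_support, support_swap (inj hab), support_swap (inj hcd)]
          rw [Finset.disjoint_left]
          intro x hx hx'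
          rw [Finset.mem_insert, Finset.mem_singleton] at hx hx'
          rcases hx with rfl | rfl
          · rcases hx' with e | e
            · exact inj hac e
            · exact inj had e
          · rcases hx' with e | e
            · exact inj hbc e
            · exact inj hbd e
        exact e1.commute
      rcases hmx with e | e | e | e
      · rw [e] at h1
        exact ⟨m b, m c, m d, e ▸ inj hab.symm, e ▸ inj hac.symm, e ▸ inj had.symm, inj hbc, inj hbd, inj hcd, h1⟩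
      · rw [e, swap_comm (m a) 8] at h1
        exact ⟨m a, m c, m d, e ▸ inj hab, e ▸ inj hbc.symm, e ▸ inj hbd.symm, inj hac, inj had, inj hcd, h1⟩
      · rw [hcomm, e] at h1
        exact ⟨m d, m a, m b, e ▸ inj hcd.symm, e ▸ inj hac, e ▸ inj hbc, inj had.symm, inj hbd.symm, inj hab, h1⟩
      · rw [hcomm, e, swap_comm (m c) 8] at h1
        exact ⟨m c, m a, m b, e ▸ inj hcd, e ▸ inj had, e ▸ inj hbd, inj hac.symm, inj hbc.symm, inj hab, h1⟩
    obtain ⟨u, hu⟩ := m.surjective 8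
    have hu8 : u ≠ 8 := by
      rintro rfl
      exact h8 hu
    have k1 : a1 ∈ M := hD (h56 (h45 (h34 (h23 (h12 m1)))))
    have k3 : a3 ∈ M := hD (h56 (h45 (h34 m3)))
    by_cases h4 : u.1 < 4
    · apply hsw 0 1 2 3 (by decide) (by decide) (by decide) (by decide) (by decide) (by decide) k1
      have : ∀ u : Fin 9, u.1 < 4 → u = 0 ∨ u = 1 ∨ u = 2 ∨ u = 3 := by decide
      rcases this u h4 with rfl | rfl | rfl | rfl
      · exact Or.inl hu
      · exact Or.inr (Or.inl hu)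
      · exact Or.inr (Or.inr (Or.inl hu))
      · exact Or.inr (Or.inr (Or.inr hu))
    · apply hsw 4 5 6 7 (by decide) (by decide) (by decide) (by decide) (by decide) (by decide) k3
      have : ∀ u : Fin 9, ¬ u.1 < 4 → u ≠ 8 → u = 4 ∨ u = 5 ∨ u = 6 ∨ u = 7 := by decide
      rcases this u h4 hu8 with rfl | rfl | rfl | rfl
      · exact Or.inl hu
      · exact Or.inr (Or.inl hu)
      · exact Or.inr (Or.inr (Or.inl hu))
      · exact Or.inr (Or.inr (Or.inr hu))
  obtain ⟨p, q, r, e1, e2, e3, e4, e5, e6, hM⟩ := key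
  obtain ⟨d, hd, hgood⟩ := exists_d e1 e2 e3 e4 e5 e6
  exact alt_of_good hprim (mul_mem hM (hD (dts_mem hd))) hgood

/-! ### `C_3 wr C_3` -/

def c0 : Perm (Fin 9) := swap 0 1 * swap 1 2
def c1 : Perm (Fin 9) := swap 3 4 * swap 4 5
def c2 : Perm (Fin 9) := swap 6 7 * swap 7 8
def t3 : Perm (Fin 9) := Equiv.addRight 3

def E1 : Subgroup (Perm (Fin 9)) := zpowers c0
def E2 : Subgroup (Perm (Fin 9)) := E1 ⊔ zpowers c1
def E3 : Subgroup (Perm (Fin 9)) := E2 ⊔ zpowers c2
/-- a subgroup of order 81 -/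
def E4 : Subgroup (Perm (Fin 9)) := E3 ⊔ zpowers t3

theorem g12 : E1 ≤ E2 := le_sup_left
theorem g23 : E2 ≤ E3 := le_sup_left
theorem g34 : E3 ≤ E4 := le_sup_left

theorem n1 : c0 ∈ E1 := mem_zpowers _
theorem n2 : c1 ∈ E2 := (le_sup_right : zpowers c1 ≤ E2) (mem_zpowers _)
theorem n3 : c2 ∈ E3 := (le_sup_right : zpowers c2 ≤ E3) (mem_zpowers _)
theorem n4 : t3 ∈ E4 := (le_sup_right : zpowers t3 ≤ E4) (mem_zpowers _)

theorem isPGroup_E4 : IsPGroup 3 E4 := by
  have e1 : IsPGroup 3 E1 := pg_zpowers (m := 1) (by decide)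
  have e2 : IsPGroup 3 E2 := pg_step e1 (conj_le' (k' := c0) (by decide) n1) (m := 1) (by decide)
  have e3 : IsPGroup 3 E3 := pg_step e2 (conj_le (k' := c1) (by decide) n2
    (conj_le' (k' := c0) (by decide) (g12 n1))) (m := 1) (by decide)
  exact pg_step e3 (conj_le (k' := c0) (by decide) (g23 (g12 n1)) (conj_le (k' := c2) (by decide) n3
    (conj_le' (k' := c1) (by decide) (g23 n2)))) (m := 1) (by decide)

theorem E4_le_alt : E4 ≤ alternatingGroup (Fin 9) := by
  refine sup_le (sup_le (sup_le (zpowers_le.2 ?_) (zpowers_le.2 ?_)) (zpowers_le.2 ?_)) (zpowers_le.2 ?_) <;>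
  (rw [mem_alternatingGroup]; decide)

theorem p3 {M : Subgroup (Perm (Fin 9))} (hE : E4 ≤ M) (hn : ¬ alternatingGroup (Fin 9) ≤ M) :
    ∀ m ∈ M, ∀ x y : Fin 9, x.1 / 3 = y.1 / 3 → (m x).1 / 3 = (m y).1 / 3 := by
  have hc0 : c0 ∈ M := hE (g34 (g23 (g12 n1)))
  have hc1 : c1 ∈ M := hE (g34 (g23 n2))
  have hc2 : c2 ∈ M := hE (g34 n3)
  have ht : t3 ∈ M := hE n4
  have htr : ∀ y : Fin 9, ∃ m ∈ M, m 0 = y := by
    intro y
    fin_cases y
    · exact ⟨1, one_mem _, rfl⟩
    · exact ⟨c0, hc0, by decide⟩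
    · exact ⟨c0 * c0, mul_mem hc0 hc0, by decide⟩
    · exact ⟨t3, ht, by decide⟩
    · exact ⟨c1 * t3, mul_mem hc1 ht, by decide⟩
    · exact ⟨c1 * c1 * t3, mul_mem (mul_mem hc1 hc1) ht, by decide⟩
    · exact ⟨t3 * t3, mul_mem ht ht, by decide⟩
    · exact ⟨c2 * (t3 * t3), mul_mem hc2 (mul_mem ht ht), by decide⟩
    · exact ⟨c2 * c2 * (t3 * t3), mul_mem (mul_mem hc2 hc2) (mul_mem ht ht), by decide⟩
  -- the block `{0, 1, 2}`
  have key : ∃ B : Set (Fin 9), B = {0, 1, 2} ∧ ∀ m ∈ M, ∀ b ∈ B, m b ∈ B → ∀ c ∈ B, m c ∈ B := by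
    by_contra hcon
    push Not at hcon
    apply hn
    apply alt_of_three (g := c0) _ hc0 (by decide)
    apply prim_of 0 htr
    intro B h0 hB hd
    by_contra hB2
    push Not at hB2
    have hB3 : B.ncard = 3 := by
      have h1 : B.ncard ≤ 4 := by omega
      have h2 : 2 ≤ B.ncard := by omega
      interval_cases h : B.ncard
      · omega
      · rfl
      · omega
    have hsub : B ⊆ {0, 1, 2} := by
      intro b hb
      by_contra hb'
      have hfix : c0 b = b := by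
        have : ∀ b : Fin 9, b ≠ 0 → b ≠ 1 → b ≠ 2 → c0 b = b := by decide
        simp only [Set.mem_insert_iff, Set.mem_singleton_iff, not_or] at hb'
        exact this b hb'.1 hb'.2.1 hb'.2.2
      have hst := hB c0 hc0 b hb (by rw [hfix]; exact hb)
      have h1 : (1 : Fin 9) ∈ B := by
        have := hst 0 h0
        have e : c0 0 = 1 := by decide
        rwa [e] at this
      have h2 : (2 : Fin 9) ∈ B := by
        have := hst 1 h1
        have e : c0 1 = 2 := by decide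
        rwa [e] at this
      have h3 : ({0, 1, 2, b} : Set (Fin 9)) ⊆ B := by
        intro x hx
        simp only [Set.mem_insert_iff, Set.mem_singleton_iff] at hx
        rcases hx with rfl | rfl | rfl | rfl
        · exact h0
        · exact h1
        · exact h2
        · exact hb
      have h4 := Set.ncard_le_ncard h3 (Set.toFinite _)
      have h5 : ({0, 1, 2, b} : Set (Fin 9)).ncard = 4 := by
        simp only [Set.mem_insert_iff, Set.mem_singleton_iff, not_or] at hb'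
        rw [Set.ncard_insert_of_notMem, Set.ncard_insert_of_notMem, Set.ncard_insert_of_notMem, Set.ncard_singleton]
        · rw [Set.mem_singleton_iff]; exact fun h => hb'.2.2 h.symm
        · simp only [Set.mem_insert_iff, Set.mem_singleton_iff, not_or]
          exact ⟨by decide, fun h => hb'.2.1 h.symm⟩
        · simp only [Set.mem_insert_iff, Set.mem_singleton_iff, not_or]
          exact ⟨by decide, by decide, fun h => hb'.1 h.symm⟩
      omega
    have heq : B = {0, 1, 2} := by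
      apply Set.eq_of_subset_of_ncard_le hsub
      rw [hB3]
      refine (Set.ncard_insert_le _ _).trans ?_
      have : ({1, 2} : Set (Fin 9)).ncard ≤ 2 := (Set.ncard_insert_le _ _).trans (by rw [Set.ncard_singleton])
      omega
    obtain ⟨m, hm, b, hb, hmb, c, hc, hmc⟩ := hcon B heq
    exact hmc (hB m hm b hb hmb c hc)
  obtain ⟨B, rfl, hB⟩ := key
  -- reduction to the block
  intro m hm x y hxy
  have hred : ∀ x : Fin 9, ∃ k ∈ M, (∀ z : Fin 9, z.1 / 3 = x.1 / 3 ↔ k z ∈ ({0, 1, 2} : Set (Fin 9))) := by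
    intro x
    simp only [Set.mem_insert_iff, Set.mem_singleton_iff]
    have h3 : x.1 / 3 = 0 ∨ x.1 / 3 = 1 ∨ x.1 / 3 = 2 := by
      have := x.2
      omega
    rcases h3 with h | h | h <;> rw [h]
    · exact ⟨1, one_mem _, by decide⟩
    · exact ⟨t3 * t3, mul_mem ht ht, by decide⟩
    · exact ⟨t3, ht, by decide⟩
  obtain ⟨k, hk, hkx⟩ := hred x
  obtain ⟨l, hl, hlx⟩ := hred (m x)
  have h1 : k x ∈ ({0, 1, 2} : Set (Fin 9)) := (hkx x).1 rfl
  have h2 : k y ∈ ({0, 1, 2} : Set (Fin 9)) := (hkx y).1 hxy.symm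
  have h3 : l (m x) ∈ ({0, 1, 2} : Set (Fin 9)) := (hlx (m x)).1 rfl
  have h4 := hB (l * m * k⁻¹) (mul_mem (mul_mem hl hm) (inv_mem hk)) (k x) h1 (by simpa using h3) (k y) h2
  have h5 : (l * m * k⁻¹) (k y) = l (m y) := by simp
  rw [h5] at h4
  exact ((hlx (m y)).2 h4).symm

end Cfsg.Agent.H814.EP9
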