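import Cfsg.Agent.H814.EP.Core

/-!
# Extremely primitive actions with point stabiliser `S_9` and degree divisible by 3: the degree is at least 561
(helper814, S3499-IV-L, socle `A_9`)
-/

set_option autoImplicit false

namespace Cfsg.Agent.H814.EP9

open Equiv Equiv.Perm MulAction Subgroup Cfsg.Agent.H284 Cfsg.Agent.H839.EP
open scoped Pointwise

/-- the stabiliser of the partition in three triples -/
def W : Subgroup (Perm (Fin 9)) where
  carrier := {σ | ∀ x y : Fin 9, (x.1 / 3 = y.1 / 3 ↔ (σ x).1 / 3 = (σ y).1 / 3)}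
  one_mem' := fun _ _ => Iff.rfl
  mul_mem' := by
    intro σ τ hσ hτ x y
    rw [Perm.mul_apply, Perm.mul_apply, ← hσ, ← hτ]
  inv_mem' := by
    intro σ hσ x y
    have := hσ (σ⁻¹ x) (σ⁻¹ y)
    simp only [← Perm.mul_apply, mul_inv_cancel, Perm.one_apply] at this
    exact this.symm

theorem mem_W {σ : Perm (Fin 9)} : σ ∈ W ↔ ∀ x y : Fin 9, (x.1 / 3 = y.1 / 3 ↔ (σ x).1 / 3 = (σ y).1 / 3) := Iff.rfl

theorem le_W {M : Subgroup (Perm (Fin 9))} (hM : ∀ m ∈ M, ∀ x y : Fin 9, x.1 / 3 = y.1 / 3 → (m x).1 / 3 = (m y).1 / 3) :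
    M ≤ W := by
  intro m hm
  rw [mem_W]
  intro x y
  refine ⟨hM m hm x y, fun e => ?_⟩
  have := hM m⁻¹ (inv_mem hm) _ _ e
  simp only [← Perm.mul_apply, inv_mul_cancel, Perm.one_apply] at this
  exact this

theorem not_alt_W : ¬ alternatingGroup (Fin 9) ≤ W := by
  intro h
  have h1 : swap 0 3 * swap 3 6 ∈ alternatingGroup (Fin 9) := by
    rw [mem_alternatingGroup]
    decide
  have h2 := (mem_W.1 (h h1) 0 1).1 (by decide)
  revert h2
  decide

theorem E4_ne : E4 ≠ ⊥ := by
  intro h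
  have h1 : c0 ∈ E4 := g34 (g23 (g12 n1))
  rw [h, mem_bot] at h1
  revert h1
  decide

/-- coordinates -/
def mk3 (a b : Fin 3) : Fin 9 := ⟨3 * a.1 + b.1, by have := a.2; have := b.2; omega⟩

theorem card_W : Nat.card W ≤ 1296 := by
  have hq : ∀ x : Fin 9, x.1 / 3 < 3 := fun x => by have := x.2; omega
  have hr : ∀ x : Fin 9, x.1 % 3 < 3 := fun x => Nat.mod_lt _ (by norm_num)
  let f1 : Perm (Fin 9) → Fin 3 → Fin 3 := fun σ a => ⟨(σ (mk3 a 0)).1 / 3, hq _⟩
  let f2 : Perm (Fin 9) → Fin 3 → Fin 3 → Fin 3 := fun σ a b => ⟨(σ (mk3 a b)).1 % 3, hr _⟩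
  have hmk : ∀ (a b : Fin 3), (mk3 a b).1 / 3 = a.1 := by decide
  have hmk' : ∀ (a b : Fin 3), (mk3 a b).1 % 3 = b.1 := by decide
  have h1 : ∀ σ ∈ W, Function.Bijective (f1 σ) := by
    intro σ hσ
    rw [← Finite.injective_iff_bijective]
    intro a a' e
    have e1 : (σ (mk3 a 0)).1 / 3 = (σ (mk3 a' 0)).1 / 3 := congrArg Fin.val e
    have e2 := (mem_W.1 hσ _ _).2 e1
    rw [hmk, hmk] at e2
    exact Fin.ext e2
  have h2 : ∀ σ ∈ W, ∀ a, Function.Bijective (f2 σ a) := by
    intro σ hσ a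
    rw [← Finite.injective_iff_bijective]
    intro b b' e
    have e1 : (σ (mk3 a b)).1 % 3 = (σ (mk3 a b')).1 % 3 := congrArg Fin.val e
    have e2 := (mem_W.1 hσ (mk3 a b) (mk3 a b')).1 (by rw [hmk, hmk])
    have e3 : σ (mk3 a b) = σ (mk3 a b') := Fin.ext (by omega)
    have e4 := congrArg Fin.val (σ.injective e3)
    have e5 : (mk3 a b).1 % 3 = (mk3 a b').1 % 3 := by rw [e4]
    rw [hmk', hmk'] at e5
    exact Fin.ext e5
  let f : W → Perm (Fin 3) × (Fin 3 → Perm (Fin 3)) := fun σ =>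
    (Equiv.ofBijective (f1 σ) (h1 σ σ.2), fun a => Equiv.ofBijective (f2 σ a) (h2 σ σ.2 a))
  have hf : Function.Injective f := by
    intro σ τ e
    have e1 : f1 σ = f1 τ := by
      have := congrArg (fun z => (z.1 : Fin 3 → Fin 3)) e
      exact this
    have e2 : ∀ a, f2 σ a = f2 τ a := by
      intro a
      have := congrArg (fun z => (z.2 a : Fin 3 → Fin 3)) e
      exact this
    apply Subtype.ext
    ext x
    obtain ⟨a, b, rfl⟩ : ∃ a b : Fin 3, mk3 a b = x :=
      ⟨⟨x.1 / 3, hq x⟩, ⟨x.1 % 3, hr x⟩, Fin.ext (by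
        show 3 * (x.1 / 3) + x.1 % 3 = x.1
        omega)⟩
    have e3 : (σ.1 (mk3 a 0)).1 / 3 = (τ.1 (mk3 a 0)).1 / 3 := congrArg Fin.val (congrFun e1 a)
    have e4 : (σ.1 (mk3 a b)).1 % 3 = (τ.1 (mk3 a b)).1 % 3 := congrArg Fin.val (congrFun (e2 a) b)
    have e5 := (mem_W.1 σ.2 (mk3 a b) (mk3 a 0)).1 (by rw [hmk, hmk])
    have e6 := (mem_W.1 τ.2 (mk3 a b) (mk3 a 0)).1 (by rw [hmk, hmk])
    omega
  have h3 := Nat.card_le_card_of_injective f hf
  refine h3.trans ?_
  rw [Nat.card_prod, Nat.card_pi, Nat.card_perm]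
  simp [Nat.factorial]

variable {G Ω : Type*} [Group G] [MulAction G Ω] {R : Subgroup (Perm (Fin 9))} {p : Ω}

variable [Finite G] [Finite Ω] [FaithfulSMul G Ω] (h : EPA G Ω) (hR : alternatingGroup (Fin 9) ≤ R)

include h hR

theorem Fr.line_E4 (F : Fr R G p) {c : Ω} (hc : c ≠ p) (hD : F.co E4 ≤ stabilizer G c) :
    stabilizer G p ⊓ stabilizer G c = F.co W :=
  F.line_eq_co h hR hc (le_W (p3 (F.le_im (E4_le_alt.trans hR) hD) (F.maxNot h hR hc).nalt)) not_alt_W

omit hR [Finite G] in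
/-- two points with the same two point stabiliser are not conjugate -/
theorem eq_of_same {c : Ω} (hc : c ≠ p) (hne : stabilizer G p ⊓ stabilizer G c ≠ ⊥) {g : G}
    (hg : g ∈ stabilizer G p) (e : stabilizer G p ⊓ stabilizer G (g • c) = stabilizer G p ⊓ stabilizer G c) :
    g • c = c := by
  set M := stabilizer G p ⊓ stabilizer G c with hM
  have hcj : cj g M = M := by
    rw [hM, cj_inf, cj_eq_self hg, ← stab_smul, e]
  let L : Subgroup G := stabilizer G p ⊓ Subgroup.normalizer (M : Set G)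
  have hML : M ≤ L := le_inf inf_le_left le_normalizer
  have hgL : g ∈ L := by
    refine ⟨hg, ?_⟩
    show g ∈ Subgroup.normalizer (M : Set G)
    rw [mem_normalizer_iff]
    intro x
    constructor
    · intro hx
      rw [← hcj]
      exact conj_mem_cj hx
    · intro hx
      rw [← hcj, mem_cj] at hx
      have e' : g⁻¹ * (g * x * g⁻¹) * g = x := by group
      rwa [e'] at hx
  rcases h.two p c hc L hML inf_le_left with h1 | h1
  · rw [h1] at hgL
    exact hgL.2
  · exfalso
    apply hne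
    refine h.F1' hc inf_le_left ?_ inf_le_right
    intro x hx k hk
    have h2 : x ∈ L := by rw [h1]; exact hx
    exact (mem_normalizer_iff.1 h2.2 k).1 hk

theorem bound_three (F : Fr R G p) (h3 : 3 ∣ Nat.card Ω) (hc : Nat.card R = 362880) : 561 ≤ Nat.card Ω := by
  have : Fact (Nat.Prime 3) := ⟨Nat.prime_three⟩
  have h1 : Nat.card Ω ≡ (fixPts Ω (F.co E4)).ncard [MOD 3] := fix_modEq (F.isPGroup isPGroup_E4)
  have hp : p ∈ fixPts Ω (F.co E4) := F.co_le _
  have h2 : 3 ≤ (fixPts Ω (F.co E4)).ncard := by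
    have h4 : 0 < (fixPts Ω (F.co E4)).ncard := (Set.ncard_pos (Set.toFinite _)).2 ⟨p, hp⟩
    unfold Nat.ModEq at h1
    omega
  have h5 : 2 ≤ (fixPts Ω (F.co E4) \ {p}).ncard := by
    rw [Set.ncard_sdiff_singleton_of_mem hp]
    omega
  obtain ⟨c, hc1, c', hc2, hne⟩ := (Set.one_lt_ncard (Set.toFinite _)).1 (by omega : 1 < (fixPts Ω (F.co E4) \ {p}).ncard)
  have e1 := F.line_E4 h hR (c := c) hc1.2 hc1.1
  have e2 := F.line_E4 h hR (c := c') hc2.2 hc2.1
  have hWne : F.co W ≠ ⊥ := by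
    intro h6
    have h7 := F.card_co E4
    have h8 : F.co E4 = ⊥ := by
      rw [eq_bot_iff, ← h6, ← e1]
      exact le_inf (F.co_le _) hc1.1
    rw [h8, Subgroup.card_bot, inf_eq_right.2 (E4_le_alt.trans hR)] at h7
    exact E4_ne ((Subgroup.card_eq_one).1 h7.symm)
  have horb : ∀ c : Ω, stabilizer G p ⊓ stabilizer G c = F.co W → 280 ≤ (orbit (stabilizer G p) c).ncard := by
    intro c e
    rw [← index_stabilizer]
    have h6 := card_mul_index (stabilizer (stabilizer G p) c)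
    have h7 : Nat.card (stabilizer (stabilizer G p) c) = Nat.card (F.co W) := by
      rw [← e]
      have h8 : stabilizer (stabilizer G p) c = (stabilizer G p ⊓ stabilizer G c).subgroupOf (stabilizer G p) := by
        ext x
        constructor
        · intro hx
          exact ⟨x.2, hx⟩
        · rintro ⟨_, hx⟩
          exact hx
      rw [h8]
      exact Nat.card_congr (subgroupOfEquivOfLe inf_le_left).toEquiv
    rw [h7, F.card_stab, hc] at h6
    have h9 : Nat.card (F.co W) ≤ 1296 := by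
      rw [F.card_co]
      exact (Subgroup.card_le_of_le inf_le_right).trans card_W
    by_contra hlt
    have h10 : (stabilizer (stabilizer G p) c).index ≤ 279 := by omega
    have h11 := Nat.mul_le_mul h9 h10
    rw [h6] at h11
    omega
  have hpo : ∀ c : Ω, c ≠ p → p ∉ orbit (stabilizer G p) c := by
    rintro c hcp ⟨g, hg⟩
    apply hcp
    have h6 : (g : G) • c = p := hg
    have h7 : (g : G) • c = (g : G) • p := h6.trans (mem_stabilizer_iff.1 g.2).symm
    exact smul_left_cancel _ h7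
  have hdis : Disjoint (orbit (stabilizer G p) c) (orbit (stabilizer G p) c') := by
    rw [Set.disjoint_left]
    intro y hy hy'
    have h6 : c' ∈ orbit (stabilizer G p) c := by
      rw [← orbit_eq_iff.2 hy, orbit_eq_iff.2 hy']
      exact mem_orbit_self _
    obtain ⟨g, hg⟩ := h6
    have h7 : (g : G) • c = c' := hg
    apply hne
    rw [← h7]
    symm
    apply eq_of_same h (p := p) hc1.2 (by rw [e1]; exact hWne) g.2
    rw [h7, e1, e2]
  have h6 : (insert p (orbit (stabilizer G p) c ∪ orbit (stabilizer G p) c')).ncard ≤ Nat.card Ω := by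
    rw [← Set.ncard_univ]
    exact Set.ncard_le_ncard (Set.subset_univ _) (Set.toFinite _)
  rw [Set.ncard_insert_of_notMem (by
    rintro (h7 | h7)
    · exact hpo c hc1.2 h7
    · exact hpo c' hc2.2 h7), Set.ncard_union_eq hdis] at h6
  have h7 := horb c e1
  have h8 := horb c' e2
  omega

end Cfsg.Agent.H814.EP9
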