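import Cfsg.Agent.H284.EP.TCrit
import Cfsg.Agent.H419.EP.Soc
import Cfsg.Agent.H814.EP.Three

/-!
# S3499 (IV-L): the socle `A_9` (helper814)

* `index_le` : `EPT A Γ`, the socle of `A` is `A_9`, `|Q : A|` even: then `|Q : A| ≤ 512`;
* `index_ge` : if moreover `A ≅ S_9` and `3 ∣ |Q : A|`, then `561 ≤ |Q : A|`;
* `row_A9`, `row_hasSoc` : not in groups of order `|Ω₇(3)|`, `|Ω₈⁺(2)|`.
-/

set_option autoImplicit false

namespace Cfsg.Agent.H814.EP9

open Equiv Equiv.Perm MulAction Subgroup Cfsg.Agent.H284 Cfsg.Agent.H839.EP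
open scoped Pointwise

section

variable {Q : Type*} [Group Q] {A N : Subgroup Q} {Γ : Subgroup (MulAut Q)} (h : EPT A Γ)

include h

/-- the index of `Γ` in `Γ Inn(Q)` -/
theorem index_HH : (EPT.HH Γ).index = A.index := by
  let f : Q ⧸ A → EPT.GG Γ ⧸ EPT.HH Γ := Quotient.map' (EPT.jj Γ) (by
    intro x y hxy
    rw [QuotientGroup.leftRel_apply] at hxy ⊢
    rw [← map_inv, ← map_mul]
    exact (EPT.jj_mem h).2 hxy)
  have hf : ∀ x : Q, f (x : Q ⧸ A) = (EPT.jj Γ x : EPT.GG Γ ⧸ EPT.HH Γ) := fun x => rfl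
  have hinj : Function.Injective f := by
    intro x y hxy
    induction x using QuotientGroup.induction_on with
    | H x =>
      induction y using QuotientGroup.induction_on with
      | H y =>
        rw [hf, hf, QuotientGroup.eq, ← map_inv, ← map_mul, EPT.jj_mem h] at hxy
        exact QuotientGroup.eq.2 hxy
  have hsurj : Function.Surjective f := by
    intro y
    induction y using QuotientGroup.induction_on with
    | H y =>
      obtain ⟨q, a, ha, rfl⟩ := EPT.exists_jj y
      refine ⟨(q : Q ⧸ A), ?_⟩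
      rw [hf, QuotientGroup.eq]
      have e : (EPT.jj Γ q)⁻¹ * (EPT.jj Γ q * a) = a := by group
      rw [e]
      exact ha
  exact (Nat.card_congr (Equiv.ofBijective f ⟨hinj, hsurj⟩)).symm

omit h in
/-- the frame at the point `A` -/
noncomputable def frame {ρ : Γ →* Perm (Fin 9)} (hρ : Function.Injective ρ) :
    Fr ρ.range (EPT.GG Γ) ((1 : EPT.GG Γ) : EPT.GG Γ ⧸ EPT.HH Γ) where
  ρ := ρ.comp (((EPT.GG Γ).subtype.comp (stabilizer (EPT.GG Γ) ((1 : EPT.GG Γ) : EPT.GG Γ ⧸ EPT.HH Γ)).subtype).codRestrict Γ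
    (fun x => (SetLike.ext_iff.1 (MulAction.stabilizer_quotient (EPT.HH Γ)) (x : EPT.GG Γ)).1 x.2))
  inj := by
    refine hρ.comp ?_
    intro x y e
    apply Subtype.ext
    apply Subtype.ext
    exact congrArg (fun z : Γ => (z : MulAut Q)) e
  ran := by
    ext σ
    constructor
    · rintro ⟨x, rfl⟩
      exact ⟨_, rfl⟩
    · rintro ⟨x, rfl⟩
      refine ⟨⟨⟨x, (le_sup_left : Γ ≤ EPT.GG Γ) x.2⟩, ?_⟩, rfl⟩
      rw [MulAction.stabilizer_quotient]
      exact x.2

variable [Finite Q] (hS : Soc A N) (e : N ≃* alternatingGroup (Fin 9))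

include hS e

theorem index_le (he : Even A.index) : A.index ≤ 512 := by
  obtain ⟨ρ, hR⟩ := exists_rho hS h (by norm_num) e
  have hfin := EPT.finite_GG h
  have hEP := EPT.toEP h
  have hfa := hEP.faithful
  have h1 := card_le hEP.toEPA (hR.alt_le hS h) (p := ((1 : EPT.GG Γ) : EPT.GG Γ ⧸ EPT.HH Γ)) (by
    show Even (EPT.HH Γ).index
    rw [index_HH h]
    exact he) (frame hR.inj)
  have h2 : Nat.card (EPT.GG Γ ⧸ EPT.HH Γ) = A.index := index_HH h
  rwa [h2] at h1

/-- the order of `A` -/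
theorem card_A : Nat.card A = 362880 ∨ Nat.card A = 181440 := by
  obtain ⟨ρ, hR⟩ := exists_rho hS h (by norm_num) e
  let f : A →* Perm (Fin 9) := ρ.comp (conjA h)
  have hf : Function.Injective f := by
    refine hR.inj.comp ?_
    rw [injective_iff_map_eq_one]
    intro a ha
    have h1 : EPT.jj Γ (a : Q) = 1 := by
      apply Subtype.ext
      exact congrArg (fun z : Γ => (z : MulAut Q)) ha
    exact Subtype.ext (EPT.jj_inj h (h1.trans (map_one _).symm))
  have halt : alternatingGroup (Fin 9) ≤ f.range := by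
    intro p hp
    refine ⟨⟨((e.symm ⟨p, hp⟩ : N) : Q), hS.le (e.symm ⟨p, hp⟩).2⟩, ?_⟩
    have h1 := hR.con (conjA h ⟨((e.symm ⟨p, hp⟩ : N) : Q), hS.le (e.symm ⟨p, hp⟩).2⟩) (e.symm ⟨p, hp⟩) rfl
    rw [e.apply_symm_apply] at h1
    exact h1
  have hc : Nat.card A = Nat.card f.range := Nat.card_congr (MonoidHom.ofInjective hf).toEquiv
  have h1 := index_dvd_of_le halt
  rw [alternatingGroup.index_eq_two] at h1
  have h2 := f.range.card_mul_index
  rw [← hc, Nat.card_perm, Nat.card_eq_fintype_card (α := Fin 9), Fintype.card_fin] at h2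
  have h3 : Nat.factorial 9 = 362880 := by decide
  rw [h3] at h2
  rcases (Nat.dvd_prime Nat.prime_two).1 h1 with h4 | h4
  · rw [h4] at h2
    left; omega
  · rw [h4] at h2
    right; omega

theorem index_ge (h3 : 3 ∣ A.index) (hA : Nat.card A = 362880) : 561 ≤ A.index := by
  obtain ⟨ρ, hR⟩ := exists_rho hS h (by norm_num) e
  have hfin := EPT.finite_GG h
  have hEP := EPT.toEP h
  have hfa := hEP.faithful
  have h4 : Nat.card ρ.range = 362880 := by
    apply le_antisymm
    · have h5 := Subgroup.card_le_card_group ρ.range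
      rw [Nat.card_perm, Nat.card_eq_fintype_card (α := Fin 9), Fintype.card_fin] at h5
      have h3 : Nat.factorial 9 = 362880 := by decide
      omega
    · rw [← hA]
      have h5 : Nat.card ρ.range = Nat.card Γ := (Nat.card_congr (MonoidHom.ofInjective hR.inj).toEquiv).symm
      rw [h5]
      apply Nat.card_le_card_of_injective (conjA h)
      rw [injective_iff_map_eq_one]
      intro a ha
      have h1 : EPT.jj Γ (a : Q) = 1 := by
        apply Subtype.ext
        exact congrArg (fun z : Γ => (z : MulAut Q)) ha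
      exact Subtype.ext (EPT.jj_inj h (h1.trans (map_one _).symm))
  have h1 := bound_three hEP.toEPA (hR.alt_le hS h) (frame hR.inj) (by
    show 3 ∣ (EPT.HH Γ).index
    rw [index_HH h]
    exact h3) h4
  have h2 : Nat.card (EPT.GG Γ ⧸ EPT.HH Γ) = A.index := index_HH h
  rwa [h2] at h1

/-- **The socle `A_9` in `Ω₇(3)`, `Ω₈⁺(2)`.** -/
theorem row_soc (hQ : Nat.card Q = 4585351680 ∨ Nat.card Q = 174182400) : False := by
  have h1 := A.card_mul_index
  have hcA := card_A h hS e
  have hev : Even A.index := by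
    rcases hQ with hQ | hQ <;> rcases hcA with hA | hA <;> rw [hQ, hA] at h1 <;>
    · rw [Nat.even_iff]
      omega
  have h2 := index_le h hS e hev
  rcases hQ with hQ | hQ
  · rcases hcA with hA | hA <;> rw [hQ, hA] at h1 <;> omega
  · rcases hcA with hA | hA
    · have h4 : A.index = 480 := by
        rw [hQ, hA] at h1
        omega
      have h3 := index_ge h hS e (by rw [h4]; norm_num) hA
      omega
    · rw [hQ, hA] at h1
      omega

end

theorem row_A9 {Q : Type*} [Group Q] [Finite Q] (_hs : IsSimpleGroup Q) {A : Subgroup Q} {Γ : Subgroup (MulAut Q)}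
    (h : EPT A Γ) {N : Subgroup Q} (hN : N ≤ A) (hNn : ∀ a ∈ A, ∀ n ∈ N, a * n * a⁻¹ ∈ N)
    (e : N ≃* alternatingGroup (Fin 9)) (hc : ∀ a ∈ A, (∀ n ∈ N, a * n = n * a) → a = 1)
    (hQ : Nat.card Q = 4585351680 ∨ Nat.card Q = 174182400) : False :=
  row_soc h ⟨hN, hNn, hc⟩ e hQ

theorem row_hasSoc {Q : Type*} [Group Q] [Finite Q] {A : Subgroup Q} {Γ : Subgroup (MulAut Q)}
    (h : EPT A Γ) (hS : Cfsg.Agent.H419.EP.HasSoc A (alternatingGroup (Fin 9)))
    (hQ : Nat.card Q = 4585351680 ∨ Nat.card Q = 174182400) : False := by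
  obtain ⟨N, h1, h2, h3, ⟨e⟩⟩ := hS
  exact row_soc h ⟨h1, h2, h3⟩ e hQ

/-- the general bound -/
theorem index_le_of_hasSoc {Q : Type*} [Group Q] [Finite Q] {A : Subgroup Q} {Γ : Subgroup (MulAut Q)}
    (h : EPT A Γ) (hS : Cfsg.Agent.H419.EP.HasSoc A (alternatingGroup (Fin 9))) (he : Even A.index) : A.index ≤ 512 := by
  obtain ⟨N, h1, h2, h3, ⟨e⟩⟩ := hS
  exact index_le h ⟨h1, h2, h3⟩ e he

end Cfsg.Agent.H814.EP9
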